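import Cfsg.Agent.Lib.OL5.AbG1
import Cfsg.Agent.Lib.Coprime.Lift

/-!
# Groups of odd order acting on an abelian 2-group of order at most 32: point stabilizers
-/

set_option autoImplicit false

namespace Cfsg.Lib.OL5

open Subgroup

variable {P : Type*} [Group P] [Finite P] [IsMulCommutative P] {β x : MulAut P}
  {I : Subgroup (MulAut P)}

omit [Finite P] [IsMulCommutative P] in
theorem ab_ker (h : β ∈ normalizer (zpowers x : Set (MulAut P)))
    (e : (zpowers x).normalizerMonoidHom ⟨β, h⟩ = 1) : β * x = x * β :=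
  have : ((zpowers x).normalizerMonoidHom ⟨β, h⟩ ⟨x, mem_zpowers x⟩).1 = x := by rw [e]; rfl
  mul_inv_eq_iff_eq_mul.1 this

omit [IsMulCommutative P] in
/-- `β x β⁻¹ = x ^ k`, `k ^ 4 ≡ 1` modulo `3` and `5` for `k` prime to the order, so `β ^ 4` commutes with `x`
(or: `MulAut (zpowers x)` has order `2` or `4`), and `β` is a power of `β ^ 4`. -/
theorem comm_of_odd (hx : orderOf x = 3 ∨ orderOf x = 5) (ho : Odd (orderOf β))
    (h : β * x * β⁻¹ ∈ zpowers x) : β * x = x * β := by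
  refine ab_ker (ab_norm h) (orderOf_eq_one_iff.1 (Nat.Coprime.eq_one_of_dvd (m := 2 ^ 2) ?_ ?_))
  · refine (Nat.Coprime.pow_right 2 (Nat.coprime_two_right.2 ho)).coprime_dvd_left ?_
    exact (orderOf_map_dvd _ _).trans (Subgroup.orderOf_mk _ _).dvd
  · refine (_root_.orderOf_dvd_natCard _).trans ?_
    rw [IsCyclic.card_mulAut, Nat.card_zpowers]
    rcases hx with e | e <;> rw [e] <;> decide

variable (hP : IsPGroup 2 P) (h32 : Nat.card P ≤ 32) (ho : Odd (Nat.card I)) (hx : x ∈ I)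
  (hn : ∀ β ∈ I, β * x * β⁻¹ ∈ zpowers x)
include hP h32 ho hx hn

/-- `V = Vv x`, `W = Fx x`, `1 ≠ v ∈ V`, `w ∈ W` with `w ≠ 1` unless `W = ⊥`, `u = v w`,
`Y = ⨅ Fx β` over `β ∈ I` fixing `u`; `v, w ∈ Y` (`fix_parts`).  `#Y ≥ #(Y ⊓ V) * #(Y ⊓ W)` (`disj`).
If `#W ≤ 4` then `W ≤ Y` (`le_fx` with `K = ⟨w⟩`, `map_mem_fx`).  For `q = 3, 5`, `Y ⊓ V` is `x`-invariant
(`comm_of_odd`), so of order `≥ 4` (`card_mod`).  Cases of `card_vv`, `#V * #W = #P`:
`#V = 16`: `#Y ≥ 4 #W`; `#V = 8`: `#Y ≥ 2 #W`; `#V = 4`: `#W ≤ 4`, `#Y ≥ 4 #W`, or `#W = 8`, `#Y ≥ 4 * 2`. -/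
theorem exists_big (hq : (orderOf x).Prime) (h31 : orderOf x ≠ 31) :
    ∃ u, ∃ Y : Subgroup P, Y.index ≤ 4 ∧ ∀ β ∈ I, β u = u → ∀ w ∈ Y, β w = w := by
  have hodd : ∀ β ∈ I, Odd (orderOf β) := fun β hβ => ho.of_dvd_nat (orderOf_dvd_natCard I hβ)
  have hox := hodd x hx
  have h2 : orderOf x ≠ 2 := fun h => absurd (h ▸ hox) (by decide)
  have hV := card_vv hP h32 hq h2 rfl
  have hVW := card_mul x
  obtain ⟨v, hv, v1⟩ := (bot_or_exists_ne_one (Vv x)).resolve_left fun e => by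
    rw [e, card_bot] at hV; omega
  obtain ⟨w, hw, w1⟩ : ∃ w ∈ Fx x, Nat.card (Fx x) = 1 ∨ w ≠ 1 := by
    rcases bot_or_exists_ne_one (Fx x) with e | ⟨w, hw, w1⟩
    · exact ⟨1, one_mem _, .inl (card_eq_one.2 e)⟩
    · exact ⟨w, hw, .inr w1⟩
  let Y : Subgroup P :=
    { carrier := {p | ∀ β ∈ I, β (v * w) = v * w → β p = p}
      one_mem' := fun β _ _ => map_one β
      mul_mem' := fun a b β h e => by rw [map_mul, a β h e, b β h e]
      inv_mem' := fun a β h e => by rw [_root_.map_inv, a β h e] }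
  refine ⟨v * w, Y, ?_, fun β h e p hp => hp β h e⟩
  have hvY : v ∈ Y := fun β h e => (fix_parts hP hox (hn β h) hv hw e).1
  have hwY : w ∈ Y := fun β h e => (fix_parts hP hox (hn β h) hv hw e).2
  have k1 := card_mul_le (inf_le_right : Vv x ⊓ Y ≤ Y) (inf_le_right : Fx x ⊓ Y ≤ Y)
    ((disj hP hox).mono inf_le_left inf_le_left)
  have two : ∀ {H : Subgroup P} {a : P}, a ∈ H → a ≠ 1 → 1 < Nat.card H := fun m a1 =>
    (one_lt_card_iff_ne_bot _).2 fun h => a1 (mem_bot.1 (h ▸ m))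
  have k2 : 1 < Nat.card ↥(Vv x ⊓ Y) := two ⟨hv, hvY⟩ v1
  have k3 : orderOf x = 3 ∨ orderOf x = 5 → 4 ≤ Nat.card ↥(Vv x ⊓ Y) := fun h35 => by
    have h1 := card_mod hP hq h2 rfl (H := Vv x ⊓ Y) (fun p m => ⟨map_mem_vv (ab_self rfl) m.1, fun β h e => by
      rw [← MulAut.mul_apply, comm_of_odd h35 (hodd β h) (hn β h), MulAut.mul_apply, m.2 β h e]⟩) inf_le_left
    have := Nat.le_of_dvd (by omega) ((Nat.modEq_iff_dvd' k2.le).1 h1.symm)
    omega
  have k4 : Nat.card (Fx x) ≤ 4 → Nat.card ↥(Fx x ⊓ Y) = Nat.card (Fx x) := fun h4 => by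
    refine congrArg (fun H : Subgroup P => Nat.card H) (inf_eq_left.2 fun p hp β h e => le_fx hP (hodd β h)
      (zpowers_le.2 hw) (fun p => map_mem_fx (hn β h)) (zpowers_le.2 (hwY β h e)) ?_ hp)
    have p0 : 0 < Nat.card (zpowers w) := Nat.card_pos
    rcases w1 with e | w1
    · omega
    · have := two (mem_zpowers w) w1
      omega
  have k5 : 4 < Nat.card (Fx x) → 1 < Nat.card ↥(Fx x ⊓ Y) := fun h4 =>
    two ⟨hw, hwY⟩ (w1.resolve_left (by omega))
  have k6 := Y.card_mul_index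
  have k7 : 0 < Nat.card Y := Nat.card_pos
  refine Nat.le_of_mul_le_mul_left ?_ k7
  rw [k6, ← hVW]
  rcases le_or_gt (Nat.card (Fx x)) 4 with h4 | h4
  · rw [k4 h4] at k1
    have k8 := Nat.mul_le_mul_right (Nat.card (Fx x)) (show 2 ≤ _ from k2)
    rcases hV with ⟨e, h | h⟩ | ⟨e, h⟩ | ⟨e, h⟩ | ⟨e, h⟩
    · rw [h]; omega
    · have := Nat.mul_le_mul_right (Nat.card (Fx x)) (k3 (.inl e))
      rw [h]; omega
    · have := Nat.mul_le_mul_right (Nat.card (Fx x)) (k3 (.inr e))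
      rw [h]; omega
    · rw [h]; omega
    · exact absurd e h31
  · rcases hV with ⟨e, h | h⟩ | ⟨e, h⟩ | ⟨e, h⟩ | ⟨e, h⟩
    · have := Nat.mul_le_mul (k3 (.inl e)) (show 2 ≤ _ from k5 h4)
      omega
    all_goals rw [h] at hVW; omega

/-- `Vv x = ⊤`, `Fx x = ⊥`, `#P = 32`; the orbit of `u ≠ 1` under `⟨x⟩` has 31 elements, so it is `P \ 1`; take
for `u` an involution.  `J = I ⊓ stabilizer u`: an element commuting with `x` is trivial, so `J` embeds in
`MulAut (zpowers x)` of order 30 (`(zpowers x).normalizerMonoidHom`, `IsCyclic.card_mulAut`), `#J ∣ 15`.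
If `3 ∣ #J`, `β ∈ J` of order three: `Coprime.wielandt_fixpoint_frobenius` in `P ⋊[MonoidHom.id _] MulAut P`
for `K = ⟨inr x⟩`, `R = ⟨inr β⟩`, `V = range inl` gives `32 = c ^ 3`. -/
theorem of_31 (h31 : orderOf x = 31) : Nat.card P = 32 ∧ (∀ p : P, p * p = 1) ∧
    ∃ u ≠ (1 : P), Nat.card ↥(I ⊓ MulAction.stabilizer (MulAut P) u) ∣ 5 := by
  have hq : Nat.Prime 31 := by norm_num
  have hox : Odd (orderOf x) := by rw [h31]; decide
  have hV : Nat.card (Vv x) = 32 := by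
    have := card_vv hP h32 hq (by decide) h31
    omega
  have hVW := card_mul x
  have p0 : 0 < Nat.card (Fx x) := Nat.card_pos
  rw [hV] at hVW
  have hc : Nat.card P = 32 := by omega
  have hW : Fx x = ⊥ := card_eq_one.1 (by omega)
  have hT : Vv x = ⊤ := eq_top_of_card_eq _ (hV.trans hc.symm)
  obtain ⟨u, hu⟩ := exists_prime_orderOf_dvd_card' (G := P) 2 (by rw [hc]; decide)
  have u1 : u ≠ 1 := fun e => by rw [e, orderOf_one] at hu; exact absurd hu (by decide)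
  have tr : ∀ p ≠ (1 : P), ∃ γ ∈ zpowers x, γ u = p := fun p p1 =>
    ab_trans hP hq (by decide) h31 hV (hT ▸ mem_top u) u1 (hT ▸ mem_top p) p1
  refine ⟨hc, fun p => ?_, u, u1, ?_⟩
  · rcases eq_or_ne p 1 with rfl | p1
    · exact mul_one 1
    · obtain ⟨γ, -, rfl⟩ := tr p p1
      rw [← map_mul, ← sq, ← hu, pow_orderOf_eq_one, map_one]
  set J := I ⊓ MulAction.stabilizer (MulAut P) u
  have key : ∀ β ∈ J, β * x = x * β → β = 1 := fun β hβ c => MulEquiv.ext fun p => by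
    rcases eq_or_ne p 1 with rfl | p1
    · simp
    · obtain ⟨_, ⟨k, rfl⟩, rfl⟩ := tr p p1
      rw [← MulAut.mul_apply, (Commute.zpow_right c k).eq, MulAut.mul_apply, show β u = u from hβ.2,
        MulAut.one_apply]
  have hJ : J ≤ normalizer (zpowers x : Set (MulAut P)) := fun β h => ab_norm (hn β h.1)
  have d1 : Nat.card J ∣ 2 * (3 * 5) := by
    have := card_dvd_of_injective ((zpowers x).normalizerMonoidHom.comp (inclusion hJ))
      ((injective_iff_map_eq_one _).2 fun β e => Subtype.ext (key _ β.2 (ab_ker (hJ β.2) e)))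
    rwa [IsCyclic.card_mulAut, Nat.card_zpowers, h31, Nat.totient_prime hq] at this
  have d2 := (Nat.coprime_two_right.2 (ho.of_dvd_nat (card_dvd_of_le (inf_le_left : J ≤ I)))).dvd_of_dvd_mul_left d1
  refine ((Nat.Prime.coprime_iff_not_dvd Nat.prime_three).2 fun h3 => ?_).symm.dvd_of_dvd_mul_left d2
  obtain ⟨β, hβ, o⟩ := Core.exists_mem_orderOf_eq_prime Nat.prime_three h3
  have hb : (⊤ : Subgroup P).map (PGroup.holL P) ⊓
      centralizer (((zpowers x).map (PGroup.holR P) : Subgroup _) : Set (PGroup.Hol P)) = ⊥ := by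
    rw [eq_bot_iff]
    rintro _ ⟨⟨p, -, rfl⟩, h⟩
    rw [mem_bot.1 (hW.le (PGroup.holL_mem_centralizer_iff.1 h x (mem_zpowers x))), map_one]
    exact one_mem _
  have W := Coprime.wielandt_fixpoint_frobenius (K := (zpowers x).map (PGroup.holR P))
    (R := (zpowers β).map (PGroup.holR P)) (V := (⊤ : Subgroup P).map (PGroup.holL P))
    ((map_mono (zpowers_le.2 (hJ hβ))).trans (le_normalizer_map _)) (by
      rintro _ ⟨δ, hδ, rfl⟩ δ1
      rw [eq_bot_iff]
      rintro _ ⟨⟨γ, hγ, rfl⟩, h⟩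
      have c : γ * δ = δ * γ := PGroup.holR_injective (by
        rw [map_mul, map_mul]; exact mem_centralizer_singleton_iff.1 h)
      by_contra γ1
      have e : zpowers γ = zpowers x := eq_of_le_of_card_ge (zpowers_le.2 hγ) (by
        have := (Nat.dvd_prime hq).1 (h31 ▸ orderOf_dvd_of_mem_zpowers hγ)
        rw [Nat.card_zpowers, Nat.card_zpowers, h31, this.resolve_left fun e => γ1 (by
          rw [orderOf_eq_one_iff.1 e, map_one]; exact one_mem _)])
      obtain ⟨k, rfl⟩ := e.ge (mem_zpowers x)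
      exact δ1 (by rw [key δ (zpowers_le.2 hβ hδ) (Commute.zpow_right c.symm k), map_one]))
    (by rw [← Subgroup.map_sup]; exact PGroup.map_holR_le_normalizer_top _) (by
      rw [← Subgroup.map_sup, PGroup.card_map_holR, PGroup.card_map_holL, card_top, hc]
      exact (Nat.coprime_two_right.2 (ho.of_dvd_nat (card_dvd_of_le
        (sup_le (zpowers_le.2 hx) (zpowers_le.2 hβ.1))))).pow_right 5)
    (Core.isSolvable_of_isPGroup ((hP.to_subgroup ⊤).map _))
  rw [hb, eq_bot_iff.2 ((inf_le_inf_left _ (centralizer_le (SetLike.coe_subset_coe.2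
    (le_sup_left (b := (zpowers β).map (PGroup.holR P)))))).trans hb.le), card_bot,
    PGroup.card_map_holR, PGroup.card_map_holL, card_top, hc, Nat.card_zpowers, o] at W
  generalize Nat.card _ = c at W
  rcases le_or_gt c 3 with h | h
  · have := Nat.pow_le_pow_left h 3
    omega
  · have := Nat.pow_le_pow_left (show 4 ≤ c from h) 3
    omega

omit hx hn in
/-- `I = ⊥`: `u = 1`, `Y = ⊤`.  Otherwise `exists_normal`, `exists_big`, `of_31`; if `#J = 1` take `Y = ⊤`;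
if `#J = 5`, `1 ≠ β ∈ J` has order five, `#(Fx β) = 2` (`card_vv`, `card_mul`), `Fx β = ⟨u⟩`. -/
theorem ab_cases :
    (∃ u, ∃ Y : Subgroup P, Y.index ≤ 4 ∧ ∀ β ∈ I, β u = u → ∀ w ∈ Y, β w = w) ∨
    Nat.card P = 32 ∧ (∀ p : P, p * p = 1) ∧ ∃ u ≠ (1 : P),
      Nat.card ↥(I ⊓ MulAction.stabilizer (MulAut P) u) = 5 ∧
      ∀ β ∈ I, β u = u → ∀ v, β v = v → v ∈ zpowers u ∨ β = 1 := by
  by_cases h1 : I = ⊥
  · exact .inl ⟨1, ⊤, by simp, fun β h _ w _ => by rw [mem_bot.1 (h1.le h), MulAut.one_apply]⟩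
  obtain ⟨x, hx, hq, hn⟩ := exists_normal hP h32 ho h1
  by_cases h31 : orderOf x = 31
  swap
  · exact .inl (exists_big hP h32 ho hx hn hq h31)
  obtain ⟨hc, h2, u, u1, d⟩ := of_31 hP h32 ho hx hn h31
  rcases (Nat.dvd_prime Nat.prime_five).1 d with e | e
  · exact .inl ⟨u, ⊤, by simp, fun β h e' w _ => by
      rw [mem_bot.1 ((card_eq_one.1 e).le ⟨h, e'⟩), MulAut.one_apply]⟩
  refine .inr ⟨hc, h2, u, u1, e, fun β h e' v hv => or_iff_not_imp_right.2 fun β1 => ?_⟩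
  have o : orderOf β = 5 := ((Nat.dvd_prime Nat.prime_five).1 (e ▸ orderOf_dvd_natCard _
    (show β ∈ I ⊓ MulAction.stabilizer (MulAut P) u from ⟨h, e'⟩))).resolve_left
      fun e => β1 (orderOf_eq_one_iff.1 e)
  have k1 : Nat.card (Vv β) = 16 := by
    have := card_vv hP h32 Nat.prime_five (by decide) o
    omega
  have k2 := card_mul β
  have k3 : 1 < Nat.card (zpowers u) := (one_lt_card_iff_ne_bot _).2 (zpowers_eq_bot.not.2 u1)
  rw [k1] at k2
  exact (eq_of_le_of_card_ge (zpowers_le.2 (mem_fx.2 e')) (by omega)).ge hv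

end Cfsg.Lib.OL5
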