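import Cfsg.Agent.Lib.OL5.Grp1
import Cfsg.Agent.Lib.PGroup.MaxClass

/-!
# Order 32 without an abelian subgroup of index two; the list of cases
-/

set_option autoImplicit false

namespace Cfsg.Lib.OL5

open Subgroup Cfsg.Lib.CY4

variable {P : Type*} [Group P] [Finite P]

omit [Finite P] in
theorem g2_quot {N : Subgroup P} [N.Normal] {a b : P} :
    a * b * a⁻¹ * b⁻¹ ∈ N ↔ Commute (a : P ⧸ N) (b : P ⧸ N) :=
  (QuotientGroup.eq_one_iff _).symm.trans
    (commutatorElement_eq_one_iff_commute (g₁ := (a : P ⧸ N)) (g₂ := (b : P ⧸ N)))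

omit [Finite P] in
theorem g2_der_le {A N : Subgroup P} [N.Normal] (hA : A.index = 2) {t : P} (ht : t ∉ A)
    (hc : ∀ a ∈ A, ∀ b ∈ A, a * b * a⁻¹ * b⁻¹ ∈ N) (h : ∀ a ∈ A, t * a * t⁻¹ * a⁻¹ ∈ N) :
    commutator P ≤ N := by
  have k : ∀ g ∉ A, ∃ b ∈ A, g = t * b := fun g m =>
    ⟨t⁻¹ * g, (mul_mem_iff_of_index_two hA).2
      ⟨fun h => absurd (inv_mem_iff.1 h) ht, fun h => absurd h m⟩, by group⟩
  have c0 : ∀ a ∈ A, Commute ((t : P ⧸ N)) (a : P ⧸ N) := fun a ha => g2_quot.1 (h a ha)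
  have c2 : ∀ a ∈ A, ∀ g : P, Commute ((a : P ⧸ N)) (g : P ⧸ N) := fun a ha g => by
    by_cases m : g ∈ A
    · exact g2_quot.1 (hc a ha g m)
    · obtain ⟨b, hb, rfl⟩ := k g m
      exact (c0 a ha).symm.mul_right (g2_quot.1 (hc a ha b hb))
  refine commutator_le.2 fun g _ g' _ => g2_quot.2 ?_
  by_cases m : g ∈ A
  · exact c2 g m g'
  by_cases m' : g' ∈ A
  · exact (c2 g' m' g).symm
  obtain ⟨a, ha, rfl⟩ := k g m
  obtain ⟨b, hb, rfl⟩ := k g' m'
  exact Commute.mul_left ((Commute.refl _).mul_right (c0 b hb)) (c2 a ha (t * b))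

omit [Finite P] in
theorem g2_der_two {K : Subgroup P} (hK : K.index = 2) : commutator P ≤ K := by
  refine commutator_le.2 fun a _ b _ => ?_
  rw [commutatorElement_def]
  simp only [mul_mem_iff_of_index_two hK, inv_mem_iff]
  tauto

theorem g2_conj {L : Subgroup P} [hL : L.Normal] (l : center P ≤ L)
    (c : Nat.card L ≤ 2 * Nat.card (center P)) {v : P} (hv : v ∈ L) (g : P) :
    g * v * g⁻¹ * v⁻¹ ∈ center P := by
  by_cases m : v ∈ center P
  · exact mul_mem ((inferInstance : (center P).Normal).conj_mem v m g) (inv_mem m)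
  · refine g1_mul l c (hL.conj_mem v hv g) (inv_mem hv) (fun e => m ?_) (fun e => m (inv_mem_iff.1 e))
    have := (inferInstance : (center P).Normal).conj_mem _ e g⁻¹
    simpa [mul_assoc] using this

theorem g2_idx (hZ : Nat.card (center P) = 2) {v : P} (hv : v ∉ center P)
    (h : ∀ g, g * v * g⁻¹ * v⁻¹ ∈ center P) : (centralizer ({v} : Set P)).index = 2 := by
  obtain ⟨b, n⟩ : ∃ g, g ∉ centralizer ({v} : Set P) := by
    by_contra! c
    exact hv (mem_center_iff.2 fun g => mem_centralizer_singleton_iff.1 (c g))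
  have k : ∀ g, g ∉ centralizer ({v} : Set P) → g * v * g⁻¹ * v⁻¹ ≠ 1 := fun g m e =>
    m (mem_centralizer_singleton_iff.2 (commutatorElement_eq_one_iff_mul_comm.1 e))
  refine index_eq_two_iff.2 ⟨b, fun g => ?_⟩
  by_cases m : g ∈ centralizer ({v} : Set P)
  · exact .inr ⟨m, fun e => n ((mul_mem_cancel_left m).1 e)⟩
  · refine .inl ⟨mem_centralizer_singleton_iff.2 ?_, m⟩
    have e := (g1_two hZ (h b) (k b n) (h g)).resolve_left (k g m)
    have z := mem_center_iff.1 (h b)
    have s : (b * v * b⁻¹ * v⁻¹) * (b * v * b⁻¹ * v⁻¹) = 1 :=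
      mem_bot.1 (g1_sq (bot_le : ⊥ ≤ center P) (by rw [hZ, card_bot]) (h b))
    generalize hc : b * v * b⁻¹ * v⁻¹ = c at e z s
    have e1 : b * v = c * v * b := by rw [← hc]; group
    have e2 : g * v = c * v * g := by rw [← e]; group
    calc g * b * v = g * (c * v * b) := by rw [mul_assoc, e1]
      _ = c * (g * v) * b := by rw [← mul_assoc, ← mul_assoc, z g]; group
      _ = c * c * v * (g * b) := by rw [e2]; group
      _ = v * (g * b) := by rw [s, one_mul]

omit [Finite P] in
theorem g2_sup {N K : Subgroup P} {y : P} (h : ∀ a ∈ N, ∀ b ∈ K, a * b = b * a)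
    (hy : ∀ b ∈ K, y * b = b * y) : ∀ a ∈ N ⊔ zpowers y, ∀ b ∈ K, a * b = b * a := by
  have : N ⊔ zpowers y ≤ centralizer (K : Set P) :=
    sup_le (fun a ha => mem_centralizer_iff.2 fun b hb => (h a ha b hb).symm)
      (zpowers_le.2 (mem_centralizer_iff.2 fun b hb => (hy b hb).symm))
  exact fun a ha b hb => (mem_centralizer_iff.1 (this ha) b hb).symm

section NoAb

variable (h32 : Nat.card P = 32) (h4 : Nat.card (commutator P) = 4)
  (hn : ∀ A : Subgroup P, A.index = 2 → ∃ a ∈ A, ∃ b ∈ A, a * b ≠ b * a)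
include h32 h4 hn

/-- If `K` has index two, `L ≤ K` commutes with `K` and `#L ≥ 8`, then `K` is abelian (`K = L` or
`K = L ∪ L k`): impossible.  So `#L ≤ 4`. -/
theorem card_le_four {K L : Subgroup P} (hK : K.index = 2) (l : L ≤ K)
    (c : ∀ a ∈ L, ∀ b ∈ K, a * b = b * a) : Nat.card L ≤ 4 := by
  have cK : Nat.card K = 16 := by
    have := K.card_mul_index
    rw [hK] at this
    omega
  by_contra! h
  have d : Nat.card L ∣ 2 ^ 4 := (card_dvd_of_le l).trans (cK ▸ dvd_rfl)
  obtain ⟨n, hn4, e⟩ := (Nat.dvd_prime_pow Nat.prime_two).1 d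
  have h8 : 8 ≤ Nat.card L := by
    rw [e] at h ⊢
    interval_cases n <;> omega
  obtain ⟨a, ha, b, hb, ne⟩ := hn K hK
  have := c _ (g1_mul l (by omega) ha hb (fun m => ne (c a m b hb))
    (fun m => ne (c b m a ha).symm)) a ha
  rw [mul_assoc] at this
  exact ne (mul_left_cancel this).symm

/-- `v ≠ 1` with `C(v)` of index other than `1, 2` is small (the index is a power of two, `#C(v) ≤ 8`). -/
theorem sm_of_index {v : P} (h1 : v ∉ center P) (h2 : (centralizer ({v} : Set P)).index ≠ 2) :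
    Sm v := by
  have hP : IsPGroup 2 P := IsPGroup.of_card (n := 5) h32
  obtain ⟨m, hm⟩ := hP.index (centralizer ({v} : Set P))
  have a := g1_cent h1
  have i4 : 4 ≤ (centralizer ({v} : Set P)).index := by
    rw [hm] at a h2 ⊢
    rcases m with _ | _ | m
    · omega
    · omega
    · exact Nat.pow_le_pow_right (n := 2) (i := 2) (by decide) (by omega)
  have b := (centralizer ({v} : Set P)).card_mul_index
  have b' := Nat.mul_le_mul_left (Nat.card (centralizer ({v} : Set P))) i4
  have c := (commutator P).card_mul_index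
  have d : orderOf v ≠ 1 := fun e => h1 (orderOf_eq_one_iff.1 e ▸ one_mem _)
  have e := orderOf_pos v
  rw [h4] at c
  exact ⟨by omega, by omega⟩

/-- `#Z ≥ 4`.  For `y ∉ Z`: `L = Z ⊔ ⟨y⟩` is central in `C(y)`, `#L ≥ 8`, so `C(y)` has not index two
(`card_le_four`), `y` is small and `8 ≤ 2 #Z ≤ #L ≤ #C(y) ≤ 8`; so `#Z = 4` and `y² ∈ Z` (`Z` has index two in
`L`).  All squares are central, so `P / Z` is abelian, `P' ≤ Z`, `P' = Z`; `⁅a, b⁆² = ⁅a², b⁆ = 1`, so
`P'` lies in the normal subgroup `{z ∈ Z | z² = 1}`; `ct_of_pow` with `n = 2` (`exists_sq_ne`). -/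
theorem of_big_center (hZ : 4 ≤ Nat.card (center P)) : CT P := by
  have nb : commutator P ≠ ⊥ := g1_ne_bot (by omega)
  have i8 : (commutator P).index = 8 := by
    have c := (commutator P).card_mul_index
    rw [h4] at c
    omega
  have key : ∀ y ∉ center P, Sm y ∧ Nat.card (center P) ≤ 4 ∧ y * y ∈ center P := fun y hy => by
    have l : center P ⊔ zpowers y ≤ centralizer ({y} : Set P) :=
      sup_le (center_le_centralizer _) (zpowers_le.2 (mem_centralizer_singleton_iff.2 rfl))
    have m : y ∈ center P ⊔ zpowers y := mem_sup_right (mem_zpowers y)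
    have a := g1_half le_sup_left m hy
    have s : Sm y := sm_of_index h32 h4 hn hy fun i => by
      have := card_le_four h32 h4 hn i l (g2_sup (fun a ha b _ => (mem_center_iff.1 ha b).symm)
        fun b hb => (mem_centralizer_singleton_iff.1 hb).symm)
      omega
    have b := card_le_of_le l
    have c := s.1
    exact ⟨s, by omega, g1_sq le_sup_left (by omega) m⟩
  have sqz : ∀ y : P, y * y ∈ center P := fun y => by
    by_cases m : y ∈ center P
    · exact mul_mem m m
    · exact (key y m).2.2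
  have l : commutator P ≤ g1Om P := commutator_le.2 fun a _ b _ => by
    rw [commutatorElement_def]
    have z : a * b * a⁻¹ * b⁻¹ ∈ center P := by
      have := mul_mem (mul_mem (sqz (a * b))
        ((inferInstance : (center P).Normal).conj_mem _ (sqz a⁻¹) b⁻¹)) (sqz b⁻¹)
      convert this using 1
      group
    refine ⟨z, ?_⟩
    have z' := mem_center_iff.1 z
    generalize hc : a * b * a⁻¹ * b⁻¹ = c at z'
    have e : a * b = c * b * a := by rw [← hc]; group
    have : c * c * (b * (a * a)) = b * (a * a) := by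
      calc c * c * (b * (a * a)) = c * (c * b * a) * a := by group
        _ = c * a * b * a := by rw [← e]; group
        _ = a * (c * b * a) := by rw [← z' a]; group
        _ = a * a * b := by rw [← e]; group
        _ = _ := (mem_center_iff.1 (sqz a) b).symm
    exact mul_eq_right.1 this
  obtain ⟨a, b, n⟩ := g1_noncomm nb
  have c4 := (key a fun m => n (mem_center_iff.1 m b).symm).2.1
  have e : commutator P = center P := eq_of_le_of_card_ge (fun _ h => (l h).1) (by omega)
  obtain ⟨u, hu⟩ := exists_sq_ne nb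
  exact ct_of_pow hu fun v hv => (key v fun m => hv (by rw [sq]; exact (l (e ▸ m)).2)).1

/-- `Z = {1, z} ≤ P'` (`P'` meets the centre).  Every element of `P' \ Z` is `w` or `w z`.
(1) If `C(v) = K` has index two (`v ∉ Z`): `L = Z ⊔ ⟨v⟩` ... in fact `L = K ⊓ C(K)` is normal, `#L ≤ 4`
(`card_le_four`), contains `z, v`, so `L = {1, z, v, v z}`: `g v g⁻¹ ∈ {v, v z}`, `v² ∈ Z`, `v ^ 4 = 1`; and
`P' ≤ K`, so `v` commutes with `P'`.
So if some `u ^ 4 ≠ 1`: `ct_of_pow` with `n = 4` (`sm_of_index`).  Assume exponent four; show `v² = 1` for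
`v` as in (1), then `ct_of_pow` with `n = 2`.
(2) `C = C(w)` has index two (the conjugates of `w` are `w, w z`), `P'` is central in `C`, `#C = 16`;
an element of `C` commuting with all of `C` lies in `P'` (`card_le_four` for `P' ⊔ ⟨y⟩`); `y² ∈ P'` for
`y ∈ C` (otherwise `C = P' ⊔ ⟨y⟩` would be abelian).  For `a, b ∈ C`, any `g`: `g a g⁻¹ = a p`,
`g b g⁻¹ = b p'` with `p, p' ∈ P'` central in `C`, so `g ⁅a, b⁆ g⁻¹ = ⁅a, b⁆ ∈ Z`.
(3) As `P' ≰ Z` there are `t ∉ C`, `y ∈ C` with `t y t⁻¹ = y w'`, `w' ∈ P' \ Z` (otherwise `P / Z` is abelian,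
compare `der_le`); `t w' t⁻¹ = w' z`.  If `w'² ≠ 1` (`= z`): `t y² t⁻¹ = y² z`, so `y² ∈ P' \ Z` has order
four, `y ^ 4 ≠ 1`, false.  So `P'` has exponent two, `s = t² ∈ C`, `s y s⁻¹ = y z`, `s² = 1`.  `P'` has index
four in `C`, `y, s, y s ∉ P'`, `y⁻¹ s ∉ P'`: `C = P' ∪ y P' ∪ s P' ∪ y s P'`.  `v ∈ C` from (1) has
`v⁻¹ t v t⁻¹ ∈ Z`, which fails for `v = y p`, `y s p`; so `v = p` or `s p`, `v² = 1`. -/
theorem of_small_center (hZ : Nat.card (center P) = 2) : CT P := by
  have hP : IsPGroup 2 P := IsPGroup.of_card (n := 5) h32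
  have := hP.isNilpotent
  have nb : commutator P ≠ ⊥ := g1_ne_bot (by omega)
  have z2 : ∀ z ∈ center P, z * z = 1 := fun z hz =>
    mem_bot.1 (g1_sq (bot_le : ⊥ ≤ center P) (by rw [hZ, card_bot]) hz)
  have ZD : center P ≤ commutator P := by
    obtain ⟨⟨z, hz⟩, z1⟩ := ne_bot_iff_exists_ne_one.1 (PGroup.normal_inf_center_ne_bot _ nb)
    intro d hd
    rcases g1_two hZ hz.2 (fun e => z1 (Subtype.ext e)) hd with e | e
    · exact e ▸ one_mem _
    · exact e ▸ hz.1
  have one : ∀ v, (centralizer ({v} : Set P)).index = 2 →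
      v * v ∈ center P ∧ ∀ g, g * v * g⁻¹ * v⁻¹ ∈ center P := fun v i => by
    have := normal_of_index_eq_two i
    have c := card_le_four h32 h4 hn i (L := centralizer ({v} : Set P) ⊓
      centralizer (centralizer ({v} : Set P) : Set P)) inf_le_left
      fun a ha b hb => (mem_centralizer_iff.1 ha.2 b hb).symm
    have l : center P ≤ centralizer ({v} : Set P) ⊓ centralizer (centralizer ({v} : Set P) : Set P) :=
      le_inf (center_le_centralizer _) (center_le_centralizer _)
    have m : v ∈ centralizer ({v} : Set P) ⊓ centralizer (centralizer ({v} : Set P) : Set P) :=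
      ⟨mem_centralizer_singleton_iff.2 rfl,
        mem_centralizer_iff.2 fun b hb => mem_centralizer_singleton_iff.1 hb⟩
    exact ⟨g1_sq l (by omega) m, g2_conj l (by omega) m⟩
  have p4 : ∀ v : P, v ^ 4 = v * v * (v * v) := fun v => by
    simp only [pow_succ, pow_zero, one_mul, mul_assoc]
  by_cases hu : ∃ u : P, u ^ 4 ≠ 1
  · obtain ⟨u, hu⟩ := hu
    refine ct_of_pow hu fun v hv => sm_of_index h32 h4 hn (fun m => hv ?_) fun i => hv ?_
    · rw [p4, z2 v m, mul_one]
    · rw [p4, z2 _ (one v i).1]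
  push Not at hu
  obtain ⟨u, hu2⟩ := exists_sq_ne nb
  refine ct_of_pow hu2 fun v hv => sm_of_index h32 h4 hn (fun m => hv ?_) fun i => hv ?_
  · rw [sq, z2 v m]
  rw [sq]
  obtain ⟨w, hw, wZ⟩ : ∃ w ∈ commutator P, w ∉ center P := by
    by_contra! c
    have := card_le_of_le (show commutator P ≤ center P from c)
    omega
  have cj : ∀ d ∈ commutator P, ∀ g, g * d * g⁻¹ * d⁻¹ ∈ center P := fun d hd =>
    g2_conj ZD (by omega) hd
  have iC := g2_idx hZ wZ (cj w hw)
  have vC : v ∈ centralizer ({w} : Set P) := mem_centralizer_singleton_iff.2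
    (mem_centralizer_singleton_iff.1 (g2_der_two i hw)).symm
  have dw : ∀ w ∈ commutator P, w ∉ center P → ∀ d ∈ commutator P,
      d ∈ center P ∨ ∃ ζ ∈ center P, d = w * ζ := fun w hw wZ d hd => by
    by_cases m : d ∈ center P
    · exact .inl m
    · exact .inr ⟨w⁻¹ * d, g1_mul ZD (by omega) (inv_mem hw) hd (fun e => wZ (inv_mem_iff.1 e)) m,
        by group⟩
  have cC : ∀ d ∈ commutator P, ∀ c ∈ centralizer ({w} : Set P), d * c = c * d := fun d hd c hc => by
    rcases dw w hw wZ d hd with m | ⟨ζ, m, rfl⟩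
    · exact (mem_center_iff.1 m c).symm
    · rw [mul_assoc, ← mem_center_iff.1 m c, ← mul_assoc, ← mem_centralizer_singleton_iff.1 hc,
        mul_assoc]
  have tw : ∀ t ∉ centralizer ({w} : Set P), ∀ d ∈ commutator P, d ∉ center P →
      t * d * t⁻¹ * d⁻¹ ≠ 1 := fun t ht d hd dZ e => by
    rcases dw d hd dZ w hw with m | ⟨ζ, m, e'⟩
    · exact wZ m
    · refine ht (mem_centralizer_singleton_iff.2 ?_)
      rw [e', ← mul_assoc, commutatorElement_eq_one_iff_mul_comm.1 e, mul_assoc, mem_center_iff.1 m t,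
        mul_assoc]
  generalize centralizer ({w} : Set P) = C at iC vC cC tw
  have DC : commutator P ≤ C := g2_der_two iC
  have nC := normal_of_index_eq_two iC
  have cardC : Nat.card C = 16 := by
    have := C.card_mul_index
    rw [iC] at this
    omega
  have sqC : ∀ y ∈ C, y * y ∈ commutator P := fun y hy => by
    by_cases h : ∀ b ∈ C, y * b = b * y
    · have c := card_le_four h32 h4 hn iC (sup_le DC (zpowers_le.2 hy)) (g2_sup cC h)
      exact g1_sq le_sup_left (by omega) (mem_sup_right (mem_zpowers y))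
    · push Not at h
      obtain ⟨b, hb, n⟩ := h
      have c := g1_half (inf_le_left : C ⊓ centralizer ({y} : Set P) ≤ C) hb
        fun e => n (mem_centralizer_singleton_iff.1 e.2).symm
      exact g1_sq (H := C ⊓ centralizer ({y} : Set P))
        (fun d hd => ⟨DC hd, mem_centralizer_singleton_iff.2 (cC d hd y hy)⟩) (by omega)
        ⟨hy, mem_centralizer_singleton_iff.2 rfl⟩
  have cm : ∀ a ∈ C, ∀ b ∈ C, a * b * a⁻¹ * b⁻¹ ∈ center P := fun a ha b hb => by
    refine mem_center_iff.2 fun g => ?_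
    have c1 := cC _ (g1_comm_mem g a)
    have c2 := cC _ (g1_comm_mem g b)
    have pC := DC (g1_comm_mem g a)
    generalize hp : g * a * g⁻¹ * a⁻¹ = p at c1 pC
    generalize hq : g * b * g⁻¹ * b⁻¹ = q at c2
    have e1 : g * a * g⁻¹ = p * a := by rw [← hp]; group
    have e2 : g * b * g⁻¹ = q * b := by rw [← hq]; group
    have k1 := c1 _ (mul_mem (mul_mem ha (mul_mem (DC (hq ▸ g1_comm_mem g b)) hb)) (inv_mem ha))
    have k2 := c2 _ (mul_mem (mul_mem hb (inv_mem ha)) (inv_mem hb))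
    rw [← mul_inv_eq_iff_eq_mul]
    calc g * (a * b * a⁻¹ * b⁻¹) * g⁻¹
        = (g * a * g⁻¹) * (g * b * g⁻¹) * (g * a * g⁻¹)⁻¹ * (g * b * g⁻¹)⁻¹ := by group
      _ = p * (a * (q * b) * a⁻¹) * p⁻¹ * (q * b)⁻¹ := by rw [e1, e2]; group
      _ = a * (q * (b * a⁻¹ * b⁻¹)) * q⁻¹ := by rw [k1]; group
      _ = _ := by rw [k2]; group
  obtain ⟨t, ht⟩ : ∃ t, t ∉ C := by
    by_contra! c
    rw [(eq_top_iff' _).2 c, index_top] at iC
    omega
  obtain ⟨y, hy, yZ⟩ : ∃ y ∈ C, t * y * t⁻¹ * y⁻¹ ∉ center P := by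
    by_contra! c
    exact wZ (g2_der_le iC ht cm c hw)
  have hx := g1_comm_mem t y
  generalize hxe : t * y * t⁻¹ * y⁻¹ = x at yZ hx
  have e1 : t * y * t⁻¹ = x * y := by rw [← hxe]; group
  have xy := cC x hx y hy
  have x2 : x * x = 1 := by
    by_contra n
    have e : t * (y * y) * t⁻¹ = x * x * (y * y) := by
      calc t * (y * y) * t⁻¹ = (t * y * t⁻¹) * (t * y * t⁻¹) := by group
        _ = x * (y * x) * y := by rw [e1]; group
        _ = _ := by rw [← xy]; group
    rcases dw x hx yZ _ (sqC y hy) with m | ⟨ζ, m, e'⟩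
    · rw [mem_center_iff.1 m t, mul_inv_cancel_right] at e
      exact n (mul_eq_right.1 e.symm)
    · have := hu y
      rw [p4, e', mul_assoc, ← mul_assoc ζ, ← mem_center_iff.1 m x, mul_assoc, z2 ζ m, mul_one] at this
      exact n this
  have d2 : ∀ d ∈ commutator P, d * d = 1 := fun d hd => by
    rcases dw x hx yZ d hd with m | ⟨ζ, m, rfl⟩
    · exact z2 d m
    · rw [mul_assoc, ← mul_assoc ζ, ← mem_center_iff.1 m x, mul_assoc, z2 ζ m, mul_one, x2]
  have sC := mul_self_mem_of_index_two iC t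
  have sD : t * t ∉ commutator P := fun m => by
    refine tw t ht x hx yZ ?_
    have := cC _ m y hy
    have e : t * x * t⁻¹ * (x * y) = y := by
      calc t * x * t⁻¹ * (x * y) = t * x * t⁻¹ * (t * y * t⁻¹) := by rw [e1]
        _ = t * (x * y) * t⁻¹ := by group
        _ = t * t * y * (t * t)⁻¹ := by rw [← e1]; group
        _ = y := by rw [this]; group
    rw [← mul_assoc] at e
    rw [inv_eq_of_mul_eq_one_right x2]
    exact mul_eq_right.1 e
  have hH : ∀ c, c ∈ (centralizer ({(t : P ⧸ center P)} : Set _)).comap (QuotientGroup.mk' _) ↔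
      t * c * t⁻¹ * c⁻¹ ∈ center P := fun c => by
    rw [mem_comap, mem_centralizer_singleton_iff, g2_quot]
    exact eq_comm
  generalize (centralizer ({(t : P ⧸ center P)} : Set _)).comap (QuotientGroup.mk' _) = H at hH
  have c := g1_half (inf_le_left : C ⊓ H ≤ C) hy fun e => yZ (hxe ▸ (hH y).1 e.2)
  by_cases m : v ∈ commutator P
  · exact d2 v m
  have k := g1_mul (H := C ⊓ H) (fun d hd => ⟨DC hd, (hH d).2 (cj d hd t)⟩) (by omega)
    ⟨vC, (hH v).2 ((one v i).2 t)⟩
    ⟨sC, (hH _).2 (by rw [show t * (t * t) * t⁻¹ * (t * t)⁻¹ = 1 by group]; exact one_mem _)⟩ m sD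
  have s2 : t * t * (t * t) = 1 := by rw [← p4, hu]
  have k1 := cC _ k _ sC
  have k2 := d2 _ k
  generalize t * t = s at s2 k1 k2
  rw [mul_assoc v s s, s2, mul_one] at k1
  calc v * v = v * (s * (v * s)) := by rw [← k1]
    _ = 1 := by rw [← k2]; group

/-- The centre of a nontrivial 2-group has order `2` or `≥ 4`. -/
theorem of_no_ab : CT P := by
  have hP : IsPGroup 2 P := IsPGroup.of_card (n := 5) h32
  have : Nontrivial P := Finite.one_lt_card_iff_nontrivial.1 (by omega)
  have a := (one_lt_card_iff_ne_bot _).2 hP.bot_lt_center.ne'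
  obtain ⟨m, hm⟩ := IsPGroup.iff_card.1 (hP.to_subgroup (center P))
  rcases m with _ | _ | m
  · omega
  · exact of_small_center h32 h4 hn hm
  · exact of_big_center h32 h4 hn (hm ▸ Nat.pow_le_pow_right (n := 2) (i := 2) (by decide) (by omega))

end NoAb

/-- `4 #P' ≤ #P` (`PGroup.sq_mul_card_commutator_le`; `#P ≥ 4` as `P` is not abelian), all numbers
are powers of two: `#P' = 2`, or `#P' = 4` and `#P = 32`. -/
theorem cases (hP : IsPGroup 2 P) (h32 : Nat.card P ≤ 32) (h1 : commutator P ≠ ⊥)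
    (h4 : (commutator P).index ≠ 4) :
    CT P ∨ C1 P ∨ ∃ A : Subgroup P, (∃ x t, CO A x t) ∨ C2 A := by
  by_cases h2 : Nat.card (commutator P) = 2
  · exact (of_der_two hP h32 h2).elim .inl fun h => .inr (.inl h)
  obtain ⟨a, b, n⟩ := g1_noncomm h1
  have c4 : 4 ≤ Nat.card (⊤ : Subgroup P) := by
    have s1 := g1_half (bot_le : ⊥ ≤ centralizer ({a} : Set P)) (mem_centralizer_singleton_iff.2 rfl)
      fun e => n (by rw [mem_bot.1 e, one_mul, mul_one])
    have s2 := g1_half (le_top : centralizer ({a} : Set P) ≤ ⊤) (mem_top b)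
      fun e => n (mem_centralizer_singleton_iff.1 e).symm
    rw [card_bot] at s1
    omega
  have k := PGroup.sq_mul_card_commutator_le (hP.to_subgroup ⊤) c4
  rw [card_top, ← commutator_def] at k
  have e := (commutator P).card_mul_index
  have a1 := (one_lt_card_iff_ne_bot _).2 h1
  obtain ⟨m, hm⟩ := IsPGroup.iff_card.1 (hP.to_subgroup (commutator P))
  obtain ⟨l, hl⟩ := hP.index (commutator P)
  have d4 : 4 ≤ Nat.card (commutator P) := by
    rw [hm] at a1 h2 ⊢
    rcases m with _ | _ | m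
    · omega
    · omega
    · exact Nat.pow_le_pow_right (n := 2) (i := 2) (by decide) (by omega)
  have i4 : 4 ≤ (commutator P).index := by
    rw [← e, mul_comm] at k
    exact Nat.le_of_mul_le_mul_left k (by omega)
  have i8 : 8 ≤ (commutator P).index := by
    rw [hl] at i4 h4 ⊢
    rcases l with _ | _ | _ | l
    · omega
    · omega
    · omega
    · exact Nat.pow_le_pow_right (n := 2) (i := 3) (by decide) (by omega)
  have s1 := Nat.mul_le_mul_left (Nat.card (commutator P)) i8
  have q4 : Nat.card (commutator P) = 4 := by omega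
  have q32 : Nat.card P = 32 := by omega
  by_cases h : ∃ A : Subgroup P, A.index = 2 ∧ ∀ a ∈ A, ∀ b ∈ A, a * b = b * a
  · obtain ⟨A, hA, hc⟩ := h
    exact (of_ab hA hc q32 q4).elim .inl fun h => .inr (.inr ⟨A, h⟩)
  · push Not at h
    exact .inl (of_no_ab q32 q4 h)

end Cfsg.Lib.OL5
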