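import Cfsg.Agent.Lib.OL5.Def
import Cfsg.Agent.Lib.CharDeg.CyclicTop

/-!
# Derived group of order two; abelian subgroup of index two
-/

set_option autoImplicit false

namespace Cfsg.Lib.OL5

open Subgroup Cfsg.Lib.CY4

variable {P : Type*} [Group P] [Finite P] {A : Subgroup P} {u v : P}

theorem g1_half {N H : Subgroup P} (l : N ≤ H) {g : P} (m : g ∈ H) (n : g ∉ N) :
    2 * Nat.card N ≤ Nat.card H := by
  have a := gp_half l m n
  have b := N.card_mul_index
  have c := H.card_mul_index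
  have d : 0 < H.index := Nat.pos_of_ne_zero index_ne_zero_of_finite
  refine Nat.le_of_mul_le_mul_right ?_ d
  rw [c, ← b, mul_comm 2, mul_assoc]
  exact Nat.mul_le_mul_left _ a

theorem g1_mul {N H : Subgroup P} (l : N ≤ H) (c : Nat.card H ≤ 2 * Nat.card N) {a b : P}
    (ha : a ∈ H) (hb : b ∈ H) (na : a ∉ N) (nb : b ∉ N) : a * b ∈ N := by
  have e := (N.subgroupOf H).card_mul_index
  rw [Nat.card_congr (subgroupOfEquivOfLe l).toEquiv] at e
  have p : 0 < Nat.card N := Nat.card_pos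
  have i0 : (N.subgroupOf H).index ≠ 0 := index_ne_zero_of_finite
  have i1 : (N.subgroupOf H).index ≠ 1 := fun h => na (relIndex_eq_one.1 h ha)
  have i2 : (N.subgroupOf H).index ≤ 2 := by
    refine Nat.le_of_mul_le_mul_left ?_ p
    rw [e, mul_comm]; exact c
  have i : (N.subgroupOf H).index = 2 := by omega
  exact (mul_mem_iff_of_index_two i (a := ⟨a, ha⟩) (b := ⟨b, hb⟩)).2
    ⟨fun h => absurd h na, fun h => absurd h nb⟩

theorem g1_sq {N H : Subgroup P} (l : N ≤ H) (c : Nat.card H ≤ 2 * Nat.card N) {a : P}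
    (ha : a ∈ H) : a * a ∈ N := by
  by_cases n : a ∈ N
  · exact mul_mem n n
  · exact g1_mul l c ha ha n n

theorem g1_two {N : Subgroup P} (h : Nat.card N = 2) {c d : P} (hc : c ∈ N) (c1 : c ≠ 1)
    (hd : d ∈ N) : d = 1 ∨ d = c := by
  by_cases d1 : d = 1
  · exact .inl d1
  · have := g1_mul (bot_le : ⊥ ≤ N) (by rw [h, card_bot]) (inv_mem hc) hd (by simpa using c1)
      (by simpa using d1)
    exact .inr (inv_mul_eq_one.1 (mem_bot.1 this)).symm

theorem g1_central {N : Subgroup P} [hN : N.Normal] (h : Nat.card N = 2) : N ≤ center P := by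
  intro c hc
  rw [mem_center_iff]
  intro g
  by_cases c1 : c = 1
  · rw [c1, mul_one, one_mul]
  · rcases g1_two h hc c1 (hN.conj_mem c hc g) with e | e
    · exact absurd (conj_eq_one_iff.1 e) c1
    · exact mul_inv_eq_iff_eq_mul.1 e

theorem g1_four (hP : IsPGroup 2 P) (v2 : v * v ≠ 1) : 4 ≤ orderOf v := by
  obtain ⟨n, e⟩ := hP.exists_orderOf_eq_pow v
  by_contra! c
  apply v2
  rw [← sq, ← orderOf_dvd_iff_pow_eq_one, e]
  rw [e] at c
  have : n ≤ 1 := by
    by_contra! d
    have := Nat.pow_le_pow_right (show 0 < 2 by decide) d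
    omega
  simpa using Nat.pow_dvd_pow 2 this

theorem g1_cent (hv : v ∉ center P) : 2 ≤ (centralizer ({v} : Set P)).index := by
  obtain ⟨g, n⟩ : ∃ g, g ∉ centralizer ({v} : Set P) := by
    by_contra! c
    exact hv (mem_center_iff.2 fun g => mem_centralizer_singleton_iff.1 (c g))
  simpa using gp_half le_top (mem_top g) n

theorem g1_inf (hA : A.index = 2) (C : Subgroup P) : Nat.card C ≤ 2 * Nat.card ↥(C ⊓ A) := by
  have a : (C ⊓ A).index ≤ C.index * A.index := index_inf_le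
  have b := (C ⊓ A).card_mul_index
  have c := C.card_mul_index
  have d : 0 < C.index := Nat.pos_of_ne_zero index_ne_zero_of_finite
  refine Nat.le_of_mul_le_mul_right ?_ d
  rw [c, ← b, mul_comm 2, mul_assoc, mul_comm 2, ← hA]
  exact Nat.mul_le_mul_left _ a

omit [Finite P] in
theorem g1_root {y a : P} {m n : ℕ} (m0 : m ≠ 0) (o : orderOf y = m * n) (ha : a ∈ zpowers y)
    (e : a ^ m = 1) : a ∈ zpowers (y ^ n) := by
  obtain ⟨k, rfl⟩ := mem_zpowers_iff.1 ha
  rw [← zpow_natCast, ← zpow_mul, ← orderOf_dvd_iff_zpow_eq_one, o, mul_comm k] at e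
  push_cast at e
  obtain ⟨j, rfl⟩ := Int.dvd_of_mul_dvd_mul_left (by exact_mod_cast m0) e
  exact ⟨j, by simp only [zpow_mul, zpow_natCast]⟩

variable (P) in
/-- The central elements of order at most two. -/
def g1Om : Subgroup P where
  carrier := {z | z ∈ center P ∧ z * z = 1}
  one_mem' := ⟨one_mem _, mul_one _⟩
  mul_mem' := fun {a b} ha hb => ⟨mul_mem ha.1 hb.1, by
    calc a * b * (a * b) = a * (b * a) * b := by group
      _ = a * a * (b * b) := by rw [mem_center_iff.1 ha.1 b]; group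
      _ = 1 := by rw [ha.2, hb.2, mul_one]⟩
  inv_mem' := fun {a} ha => ⟨inv_mem ha.1, by rw [← mul_inv_rev, ha.2, inv_one]⟩

omit [Finite P] in
theorem g1_normal {N : Subgroup P} (h : N ≤ center P) : N.Normal :=
  ⟨fun c hc g => by rwa [mem_center_iff.1 (h hc) g, mul_inv_cancel_right]⟩

omit [Finite P] in
theorem g1_noncomm (h : commutator P ≠ ⊥) : ∃ a b : P, a * b ≠ b * a := by
  by_contra! c
  refine h (eq_bot_iff.2 (commutator_le.2 fun a _ b _ => ?_))
  exact mem_bot.2 (commutatorElement_eq_one_iff_mul_comm.2 (c a b))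

omit [Finite P] in
theorem g1_comm_mem (a b : P) : a * b * a⁻¹ * b⁻¹ ∈ commutator P :=
  commutator_mem_commutator (mem_top a) (mem_top b)

theorem g1_ne_bot {N : Subgroup P} (h : 1 < Nat.card N) : N ≠ ⊥ := fun e => by
  rw [e, card_bot] at h
  exact lt_irrefl _ h

theorem g1_cent_two (h2 : Nat.card (commutator P) = 2) (hv : v ∉ center P) :
    (centralizer ({v} : Set P)).index = 2 := by
  obtain ⟨b, n⟩ : ∃ g, g ∉ centralizer ({v} : Set P) := by
    by_contra! c
    exact hv (mem_center_iff.2 fun g => mem_centralizer_singleton_iff.1 (c g))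
  have k : ∀ g, g ∉ centralizer ({v} : Set P) → g * v * g⁻¹ * v⁻¹ ≠ 1 := fun g m e =>
    m (mem_centralizer_singleton_iff.2 (commutatorElement_eq_one_iff_mul_comm.1 e))
  refine index_eq_two_iff.2 ⟨b, fun g => ?_⟩
  by_cases m : g ∈ centralizer ({v} : Set P)
  · exact .inr ⟨m, fun e => n ((mul_mem_cancel_left m).1 e)⟩
  · refine .inl ⟨mem_centralizer_singleton_iff.2 ?_, m⟩
    have e := (g1_two h2 (g1_comm_mem b v) (k b n) (g1_comm_mem g v)).resolve_left (k g m)
    have z := mem_center_iff.1 (g1_central h2 (g1_comm_mem b v))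
    have s : (b * v * b⁻¹ * v⁻¹) * (b * v * b⁻¹ * v⁻¹) = 1 := by
      have := g1_sq (bot_le : ⊥ ≤ commutator P) (by rw [h2, card_bot]) (g1_comm_mem b v)
      exact mem_bot.1 this
    generalize hc : b * v * b⁻¹ * v⁻¹ = c at e z s
    have e1 : b * v = c * v * b := by rw [← hc]; group
    have e2 : g * v = c * v * g := by rw [← e]; group
    calc g * b * v = g * (c * v * b) := by rw [mul_assoc, e1]
      _ = c * (g * v) * b := by rw [← mul_assoc, ← mul_assoc, z g]; group
      _ = c * c * v * (g * b) := by rw [e2]; group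
      _ = v * (g * b) := by rw [s, one_mul]

/-- `C(v) ≠ ⊤` has index at least two; `#P = 2 * index P'`; `#C(v) ≤ 16 ≤ 4 * orderOf v`, as the order
of `v` is a power of two other than `1, 2`. -/
theorem sm_of_der_two (hP : IsPGroup 2 P) (h32 : Nat.card P ≤ 32)
    (h2 : Nat.card (commutator P) = 2) (hv : v ∉ center P) (v2 : v * v ≠ 1) : Sm v := by
  have a := g1_cent hv
  have b := (centralizer ({v} : Set P)).card_mul_index
  have c := (commutator P).card_mul_index
  have d := g1_four hP v2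
  have e := Nat.mul_le_mul_left (Nat.card (centralizer ({v} : Set P))) a
  rw [h2] at c
  exact ⟨by omega, by omega⟩

/-- If `u ^ n ≠ 1` and all `v` with `v ^ n ≠ 1` are small, `CT`. -/
theorem ct_of_pow {n : ℕ} (hu : u ^ n ≠ 1) (h : ∀ v : P, v ^ n ≠ 1 → Sm v) : CT P := by
  refine ⟨u, fun v hv => h v fun e => hu ?_⟩
  rwa [← orderOf_dvd_iff_pow_eq_one, hv, orderOf_dvd_iff_pow_eq_one] at e

/-- A group of exponent two is commutative. -/
theorem exists_sq_ne (h : commutator P ≠ ⊥) : ∃ u : P, u ^ 2 ≠ 1 := by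
  obtain ⟨a, b, n⟩ := g1_noncomm h
  by_contra! c
  have k : ∀ u : P, u⁻¹ = u := fun u => inv_eq_of_mul_eq_one_right (by rw [← sq]; exact c u)
  exact n (by rw [← k (a * b), mul_inv_rev, k, k])

/-- `P'` normal of order two is central.  If the centre `Z` has exponent two: `ct_of_pow` with `n = 2`
and `sm_of_der_two`.  Otherwise `#Z ≥ 4` (`z` has order `≥ 4`), so `Z.index ≤ 8`, a power of two.
Take `a, b` with `a b ≠ b a`.  `Z < Z⟨a⟩ ≤ C(a) < P` gives `Z.index ≥ 4` (`gp_half` twice).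
`Z.index ≠ 8`: `C(a)`, `C(b)` have index two (`y ∉ C(a)` means `⁅a, y⁆ = c`, the generator of `P'`, so
the product of two elements outside `C(a)` is in `C(a)`), `K = C(a) ⊓ C(b)` has index `≤ 4`
(`index_inf_le`), so there is `y ∈ K \ Z`; with `H = C(y)`:
`Z < H ⊓ K < H ⊓ C(a) < H` (witnesses `y, a, b`), `gp_half` three times gives `H = ⊤`, `y ∈ Z`. -/
theorem of_der_two (hP : IsPGroup 2 P) (h32 : Nat.card P ≤ 32)
    (h2 : Nat.card (commutator P) = 2) : CT P ∨ C1 P := by
  have nb : commutator P ≠ ⊥ := g1_ne_bot (by omega)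
  by_cases hZ : ∀ z ∈ center P, z * z = 1
  · obtain ⟨u, hu⟩ := exists_sq_ne nb
    refine .inl (ct_of_pow hu fun v hv => ?_)
    rw [sq] at hv
    exact sm_of_der_two hP h32 h2 (fun m => hv (hZ v m)) hv
  push Not at hZ
  obtain ⟨z, hz, z2⟩ := hZ
  refine .inr ⟨h2, ?_, z, hz, z2⟩
  have c4 : 4 ≤ Nat.card (center P) := by
    have := card_le_of_le (zpowers_le.2 hz)
    rw [Nat.card_zpowers] at this
    exact (g1_four hP z2).trans this
  have i8 : (center P).index ≤ 8 := by
    have a := (center P).card_mul_index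
    have b := Nat.mul_le_mul_right (center P).index c4
    omega
  obtain ⟨a, b, n⟩ := g1_noncomm nb
  have aZ : a ∉ center P := fun m => n (mem_center_iff.1 m b).symm
  have bZ : b ∉ center P := fun m => n (mem_center_iff.1 m a)
  have ia := g1_cent_two h2 aZ
  have ib := g1_cent_two h2 bZ
  have i4 := gp_half (center_le_centralizer ({a} : Set P)) (mem_centralizer_singleton_iff.2 rfl) aZ
  obtain ⟨m, hm⟩ := hP.index (center P)
  have : (center P).index = 4 ∨ (center P).index = 8 := by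
    rw [hm] at i4 i8 ⊢
    have : m ≤ 3 := by
      by_contra! d
      have := Nat.pow_le_pow_right (show 0 < 2 by decide) d
      omega
    interval_cases m <;> omega
  refine this.resolve_right fun i => ?_
  have k : (centralizer ({a} : Set P) ⊓ centralizer ({b} : Set P)).index ≤ _ := index_inf_le
  obtain ⟨y, hy, yZ⟩ : ∃ y ∈ centralizer ({a} : Set P) ⊓ centralizer ({b} : Set P), y ∉ center P := by
    by_contra! c
    have := index_antitone (show _ ≤ center P from c)
    rw [ia, ib] at k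
    omega
  have ya := mem_centralizer_singleton_iff.1 hy.1
  have yb := mem_centralizer_singleton_iff.1 hy.2
  have s1 := gp_half (H := centralizer ({y} : Set P) ⊓
      (centralizer ({a} : Set P) ⊓ centralizer ({b} : Set P)))
    (le_inf (center_le_centralizer _) (le_inf (center_le_centralizer _) (center_le_centralizer _)))
    ⟨mem_centralizer_singleton_iff.2 rfl, hy⟩ yZ
  have s2 := gp_half (N := centralizer ({y} : Set P) ⊓
      (centralizer ({a} : Set P) ⊓ centralizer ({b} : Set P)))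
    (H := centralizer ({y} : Set P) ⊓ centralizer ({a} : Set P)) (inf_le_inf_left _ inf_le_left)
    (g := a) ⟨mem_centralizer_singleton_iff.2 ya.symm, mem_centralizer_singleton_iff.2 rfl⟩
    fun e => n (mem_centralizer_singleton_iff.1 e.2.2)
  have s3 := gp_half (N := centralizer ({y} : Set P) ⊓ centralizer ({a} : Set P)) inf_le_left
    (g := b) (mem_centralizer_singleton_iff.2 yb.symm)
    fun e => n (mem_centralizer_singleton_iff.1 e.2).symm
  have s4 := g1_cent yZ
  omega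

section Ab

variable (hA : A.index = 2) (hc : ∀ a ∈ A, ∀ b ∈ A, a * b = b * a)
include hA hc

/-- `C(v) ⊓ A ≤ Z(P)` (every element is `a` or `a v`), and `C(v) ⊓ A` has index `≤ 2` in `C(v)`. -/
theorem card_cent_le (hv : v ∉ A) :
    Nat.card (centralizer ({v} : Set P)) ≤ 2 * Nat.card (center P) := by
  refine (g1_inf hA _).trans (Nat.mul_le_mul_left _ (card_le_of_le fun a ha => ?_))
  have e := mem_centralizer_singleton_iff.1 ha.1
  refine mem_center_iff.2 fun g => ?_
  by_cases m : g ∈ A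
  · exact hc g m a ha.2
  · have := hc _ ((mul_mem_iff_of_index_two hA (a := g) (b := v⁻¹)).2
      ⟨fun h => absurd h m, fun h => absurd (inv_mem_iff.1 h) hv⟩) a ha.2
    calc g * a = g * v⁻¹ * (v * a) := by group
      _ = g * v⁻¹ * a * v := by rw [← e]; group
      _ = a * g := by rw [this]; group

/-- Modulo `N` the group is generated by the central image of `A` and `t`. -/
theorem der_le {t : P} (ht : t ∉ A) {N : Subgroup P} [N.Normal]
    (h : ∀ a ∈ A, t * a * t⁻¹ * a⁻¹ ∈ N) : commutator P ≤ N := by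
  have k : ∀ g ∉ A, ∃ b ∈ A, g = t * b := fun g m =>
    ⟨t⁻¹ * g, (mul_mem_iff_of_index_two hA).2
      ⟨fun h => absurd (inv_mem_iff.1 h) ht, fun h => absurd h m⟩, by group⟩
  have c0 : ∀ a ∈ A, Commute ((t : P ⧸ N)) (a : P ⧸ N) := fun a ha => by
    have := (QuotientGroup.eq_one_iff _).2 (h a ha)
    exact commutatorElement_eq_one_iff_commute.1 this
  have c1 : ∀ a ∈ A, ∀ b ∈ A, Commute ((a : P ⧸ N)) (b : P ⧸ N) := fun a ha b hb =>
    congrArg (QuotientGroup.mk (s := N)) (hc a ha b hb)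
  have c2 : ∀ a ∈ A, ∀ g : P, Commute ((a : P ⧸ N)) (g : P ⧸ N) := fun a ha g => by
    by_cases m : g ∈ A
    · exact c1 a ha g m
    · obtain ⟨b, hb, rfl⟩ := k g m
      exact (c0 a ha).symm.mul_right (c1 a ha b hb)
  refine commutator_le.2 fun g _ g' _ => (QuotientGroup.eq_one_iff _).1 ?_
  refine commutatorElement_eq_one_iff_commute.2 (?_ : Commute ((g : P ⧸ N)) (g' : P ⧸ N))
  by_cases m : g ∈ A
  · exact c2 g m g'
  by_cases m' : g' ∈ A
  · exact (c2 g' m' g).symm
  obtain ⟨a, ha, rfl⟩ := k g m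
  obtain ⟨b, hb, rfl⟩ := k g' m'
  exact Commute.mul_left ((Commute.refl _).mul_right (c0 b hb)) (c2 a ha (t * b))

/-- Take `t ∉ A`, `τ a = t a t⁻¹ a⁻¹ ∈ P' ⊓ A`, multiplicative on `A`; `t² ∈ A`, so `t (τ a) t⁻¹ = (τ a)⁻¹`;
`a ∈ A` is central iff `τ a = 1`; `Z = Z(P) ≤ A` (else `P` is abelian), `#Z = 4` by
`CharDeg.card_eq_card_commutator_mul_inf_center` (`#A = 16`); `P' ≤ A`; `d ^ 4 = 1` on `P'`, so
`a ^ 4 ∈ Z` for `a ∈ A`.  Every `v ∉ A` is small: `#C(v) ≤ 8 = index P'`, `orderOf v ≥ 2`.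
(a) some `x ∈ A` has `x ^ 4 ≠ 1`: `CO A x t`.
  No `y ∈ A` has `y ^ 8 ≠ 1`: else `A = ⟨y⟩`, `Z = ⟨y ^ 4⟩`, `d = τ y` has `d ^ 4 = 1`, so `d ∈ Z`, `d² = 1`,
  `P' ≤ ⟨d⟩` (`der_le`) has order `≤ 2`.  So `x` has order 8, `⟨x⟩` has index two in `A`, `a² ∈ ⟨x⟩` and
  `a ^ 4 ∈ {1, x ^ 4}`; for `a ^ 4 = 1`: `a² ∈ {1, x ^ 4}` (`gp_inv`).  Let `d = τ x`, `d² ∈ {1, x ^ 4}`.  If `d² = 1`
  then `τ (x²) = 1`, `Z = ⟨x²⟩`; for `a ∈ A`, `a² ∈ ⟨x²⟩` (an element of `⟨x⟩` of order `≤ 4`), so
  `(τ a)² = 1`, `τ a ∈ Z`, `τ a ∈ {1, x ^ 4}`, `P' ≤ ⟨x ^ 4⟩`, false.  So `d² = x ^ 4 ∈ P'` and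
  `t x² t⁻¹ = d² x² = x ^ 6`.
(b) `a ^ 4 = 1` on `A`.  If some `u ^ 4 ≠ 1`: `ct_of_pow` with `n = 4`.  Otherwise for `a ∈ A`:
  `(a t)² = a (t a t⁻¹) t²`, all three in `A`, so `1 = (a t) ^ 4 = a² (t a t⁻¹)² t ^ 4 = a ^ 4 (τ a)² = (τ a)²`,
  `τ a ∈ Z`, `P' ≤ Z`, `P' = Z` by orders; the involutions of `Z` and `1` form a normal subgroup containing
  all `τ a`, hence `P'`: `C2 A`. -/
theorem of_ab (h32 : Nat.card P = 32) (h4 : Nat.card (commutator P) = 4) :
    CT P ∨ (∃ x t, CO A x t) ∨ C2 A := by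
  have hP : IsPGroup 2 P := IsPGroup.of_card (n := 5) h32
  obtain ⟨t, ht⟩ : ∃ t, t ∉ A := by
    by_contra! c
    rw [(eq_top_iff' _).2 c, index_top] at hA
    omega
  have nA := normal_of_index_eq_two hA
  obtain ⟨τ, hτ⟩ : ∃ τ : P → P, ∀ a, τ a = t * a * t⁻¹ * a⁻¹ := ⟨_, fun _ => rfl⟩
  have τA : ∀ a ∈ A, τ a ∈ A := fun a ha => hτ a ▸ mul_mem (nA.conj_mem a ha t) (inv_mem ha)
  have τD : ∀ a, τ a ∈ commutator P := fun a => hτ a ▸ g1_comm_mem t a
  have τm : ∀ a ∈ A, ∀ b ∈ A, τ (a * b) = τ a * τ b := fun a ha b hb => by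
    have := hc _ (τA b hb) _ (inv_mem ha)
    calc τ (a * b) = t * a * t⁻¹ * (τ b * a⁻¹) := by rw [hτ, hτ]; group
      _ = _ := by rw [this, hτ a]; group
  have τp : ∀ a ∈ A, ∀ n : ℕ, τ (a ^ n) = τ a ^ n := fun a ha n => by
    induction n with
    | zero => rw [hτ]; group
    | succ n ih => rw [pow_succ, τm _ (pow_mem ha n) _ ha, ih, pow_succ]
  have τc : ∀ a ∈ A, τ a = 1 → a ∈ center P := fun a ha e => by
    have e' : t * a = a * t := commutatorElement_eq_one_iff_mul_comm.1 ((hτ a).symm.trans e)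
    refine mem_center_iff.2 fun g => ?_
    by_cases m : g ∈ A
    · exact hc g m a ha
    · have := hc _ ((mul_mem_iff_of_index_two hA (a := g) (b := t⁻¹)).2
        ⟨fun h => absurd h m, fun h => absurd (inv_mem_iff.1 h) ht⟩) a ha
      calc g * a = g * t⁻¹ * (t * a) := by group
        _ = g * t⁻¹ * a * t := by rw [e']; group
        _ = a * g := by rw [this]; group
  have τz : ∀ a ∈ center P, τ a = 1 := fun a ha => by
    rw [hτ, mem_center_iff.1 ha t]; group
  have τi : ∀ a ∈ A, t * τ a * t⁻¹ = (τ a)⁻¹ := fun a ha => by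
    have := hc _ (mul_self_mem_of_index_two hA t) a ha
    calc t * τ a * t⁻¹ = t * t * a * (t⁻¹ * a⁻¹ * t⁻¹) := by rw [hτ]; group
      _ = _ := by rw [this, hτ]; group
  have τ2 : ∀ a ∈ A, τ a * τ a = 1 → τ a ∈ center P := fun a ha e => by
    refine τc _ (τA a ha) ?_
    rw [hτ (τ a), τi a ha, ← mul_inv_rev, e, inv_one]
  have ZA : center P ≤ A := fun z hz => by
    by_contra n
    have := der_le hA hc n (N := ⊥) fun a _ => by
      rw [← mem_center_iff.1 hz a]; simp
    exact g1_ne_bot (N := commutator P) (by omega) (le_bot_iff.1 this)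
  have cA : Nat.card A = 16 := by
    have := A.card_mul_index
    rw [hA] at this
    omega
  have cZ : Nat.card (center P) = 4 := by
    have := CharDeg.card_eq_card_commutator_mul_inf_center A hc t
      (CharDeg.sup_zpowers_eq_top_of_index_prime A (hA ▸ Nat.prime_two) ht)
    rw [inf_eq_right.2 ZA, h4] at this
    omega
  have DA : commutator P ≤ A := der_le hA hc ht fun a ha => hτ a ▸ τA a ha
  have D4 : ∀ d ∈ commutator P, d ^ 4 = 1 := fun d hd => by
    have := pow_card_eq_one' (x := (⟨d, hd⟩ : commutator P))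
    rw [h4] at this
    exact congrArg Subtype.val this
  have a4 : ∀ a ∈ A, a ^ 4 ∈ center P := fun a ha =>
    τc _ (pow_mem ha 4) (by rw [τp a ha, D4 _ (τD a)])
  have sm : ∀ v ∉ A, Sm v := fun v hv => by
    have a := card_cent_le hA hc hv
    have b := (commutator P).card_mul_index
    have c : orderOf v ≠ 1 := fun e => hv (orderOf_eq_one_iff.1 e ▸ one_mem _)
    have d := orderOf_pos v
    rw [h4] at b
    exact ⟨by omega, by omega⟩
  have no : ∀ d ∈ center P, d * d = 1 → ¬ ∀ a ∈ A, τ a ∈ zpowers d := fun d hd e h => by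
    have := g1_normal (zpowers_le.2 hd)
    have l := card_le_of_le (der_le hA hc ht (N := zpowers d) fun a ha => hτ a ▸ h a ha)
    rw [Nat.card_zpowers] at l
    have := orderOf_le_of_pow_eq_one (n := 2) (x := d) (by decide) (by rw [sq, e])
    omega
  by_cases hx : ∃ x ∈ A, x ^ 4 ≠ 1
  · obtain ⟨x, hx, x4⟩ := hx
    have e8 : ∀ y ∈ A, y ^ 8 = 1 := fun y hy => by
      by_contra n
      have o : orderOf y = 16 := by
        refine orderOf_eq_prime_pow (p := 2) (n := 3) n ?_
        have := pow_card_eq_one' (x := (⟨y, hy⟩ : A))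
        rw [cA] at this
        exact congrArg Subtype.val this
      have e : zpowers y = A := eq_of_le_of_card_ge (zpowers_le.2 hy) (by rw [Nat.card_zpowers]; omega)
      have dz : τ y ∈ center P := zpowers_le.2 (a4 y hy)
        (g1_root (m := 4) (n := 4) (by decide) o (e ▸ τA y hy) (D4 _ (τD y)))
      have d2 : τ y * τ y = 1 := by
        have := τi y hy
        rw [mem_center_iff.1 dz t, mul_inv_cancel_right] at this
        exact mul_eq_one_iff_eq_inv.2 this
      refine no _ dz d2 fun a ha => ?_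
      obtain ⟨k, rfl⟩ := (mem_powers_iff_mem_zpowers.2 (e ▸ ha : a ∈ zpowers y))
      exact τp y hy k ▸ pow_mem (mem_zpowers _) k
    have o : orderOf x = 8 := orderOf_eq_prime_pow (p := 2) (n := 2) x4 (e8 x hx)
    have sq' : ∀ a ∈ A, a * a ∈ zpowers x := fun a ha =>
      g1_sq (zpowers_le.2 hx) (by rw [Nat.card_zpowers]; omega) ha
    have x8 : x ^ 4 * x ^ 4 = 1 := by rw [← pow_add]; exact e8 x hx
    have m4 : x ^ 4 ∈ zpowers x := pow_mem (mem_zpowers _) 4
    rcases gp_inv (sq' _ (τA x hx)) m4 (by rw [← D4 _ (τD x)]; simp only [pow_succ, pow_zero, one_mul, mul_assoc]) x8 x4 with e | e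
    · exfalso
      have z2 : x ^ 2 ∈ center P := τc _ (pow_mem hx 2) (by rw [τp x hx, sq, e])
      have eZ : zpowers (x ^ 2) = center P := eq_of_le_of_card_ge (zpowers_le.2 z2) (by
        rw [Nat.card_zpowers, orderOf_pow, o, cZ]; decide)
      refine no _ (a4 x hx) x8 fun a ha => ?_
      have s : a * a ∈ center P := eZ ▸ g1_root (m := 4) (n := 2) (by decide) o (sq' a ha)
        (by rw [← e8 a ha, ← sq, ← pow_mul])
      have s2 : τ a * τ a = 1 := by rw [← τm a ha a ha, τz _ s]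
      have s3 : τ a ∈ zpowers x :=
        zpowers_le.2 (pow_mem (mem_zpowers x) 2) (eZ ▸ τ2 a ha s2 : τ a ∈ zpowers (x ^ 2))
      rcases gp_inv s3 m4 s2 x8 x4 with e | e
      · exact e ▸ one_mem _
      · exact e ▸ mem_zpowers _
    · refine .inr (.inl ⟨x, t, hA, hc, cA, hx, o, e8, ?_, e ▸ mul_mem (τD x) (τD x),
        fun d hd => ⟨DA hd, D4 d hd⟩⟩)
      calc t * x ^ 2 * t⁻¹ = τ (x ^ 2) * x ^ 2 := by rw [hτ]; group
        _ = x ^ 8 * (x ^ 2)⁻¹ := by rw [τp x hx, sq (τ x), e]; group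
        _ = _ := by rw [e8 x hx, one_mul]
  push Not at hx
  by_cases hu : ∃ u : P, u ^ 4 ≠ 1
  · obtain ⟨u, hu⟩ := hu
    exact .inl (ct_of_pow hu fun v hv => sm v fun m => hv (hx v m))
  push Not at hu
  have d2 : ∀ a ∈ A, τ a * τ a = 1 := fun a ha => by
    have s := mul_self_mem_of_index_two hA t
    have c1 : Commute (τ a) a := hc _ (τA a ha) _ ha
    have c2 : Commute a (τ a * a) := hc _ ha _ (mul_mem (τA a ha) ha)
    have c3 : Commute (a * (τ a * a)) (t * t) := hc _ (mul_mem ha (mul_mem (τA a ha) ha)) _ s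
    have c4 : Commute (a ^ 2) (τ a ^ 2) := (c1.symm.pow_pow 2 2)
    have e : (a * t) ^ 4 = (a * (τ a * a) * (t * t)) ^ 2 := by
      rw [hτ, show 4 = 2 * 2 from rfl, pow_mul, sq (a * t)]
      congr 1
      group
    rw [hu, c3.mul_pow, c2.mul_pow, c1.mul_pow, ← mul_assoc, c4.eq, ← sq t, ← pow_mul, hu t, mul_one,
      mul_assoc, ← pow_add, hu a, mul_one, sq] at e
    exact e.symm
  have := g1_normal (N := g1Om P) fun _ h => h.1
  have l : commutator P ≤ g1Om P := der_le hA hc ht fun a ha => hτ a ▸ ⟨τ2 a ha (d2 a ha), d2 a ha⟩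
  have e : commutator P = center P := eq_of_le_of_card_ge (fun _ h => (l h).1) (by omega)
  exact .inr (.inr ⟨h32, e, cZ, fun z hz => (l (e ▸ hz)).2, hA, hc⟩)

end Ab

/-- `card_cent_le`; `index P' = 8`. -/
theorem C2.sm (h : C2 A) (hv : v ∉ A) : Sm v := by
  have a := card_cent_le h.idx h.comm hv
  have b := (commutator P).card_mul_index
  have c : orderOf v ≠ 1 := fun e => hv (orderOf_eq_one_iff.1 e ▸ one_mem _)
  have d := orderOf_pos v
  have e := h.cardZ
  have f := h.card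
  have g : Nat.card (commutator P) = 4 := by rw [h.der, e]
  rw [g] at b
  exact ⟨by omega, by omega⟩

end Cfsg.Lib.OL5
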