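import Cfsg.Agent.Lib.PF.Main
import Cfsg.Agent.Lib.Perm.Centralizer

/-!
# Groups of odd order acting on an abelian 2-group of order at most 32: a normal subgroup of prime order
-/

set_option autoImplicit false
set_option linter.unusedSectionVars false

namespace Cfsg.Lib.OL5

open Subgroup

variable {P : Type*} [Group P] [Finite P] [IsMulCommutative P] {α β x y : MulAut P}
  {H K : Subgroup P} {v w : P} {q : ℕ}

/-- The fixed points. -/
abbrev Fx (α : MulAut P) : Subgroup P := α.toMonoidHom.eqLocus (MonoidHom.id P)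

/-- `p ↦ p⁻¹ α p`. -/
def tau (α : MulAut P) : P →* P where
  toFun p := p⁻¹ * α p
  map_one' := by simp
  map_mul' a b := by simp only [map_mul, mul_inv_rev, mul_comm' b⁻¹, mul_assoc]

/-- `[P, α]`. -/
abbrev Vv (α : MulAut P) : Subgroup P := (tau α).range

omit [Finite P] [IsMulCommutative P] in
theorem mem_fx : v ∈ Fx α ↔ α v = v := Iff.rfl

omit [Finite P] in
theorem tau_apply (α : MulAut P) (v : P) : tau α v = v⁻¹ * α v := rfl

omit [Finite P] in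
theorem ker_tau (α : MulAut P) : (tau α).ker = Fx α := by
  ext v
  rw [MonoidHom.mem_ker, tau_apply, inv_mul_eq_one, mem_fx, eq_comm]

omit [IsMulCommutative P] in
theorem ab_norm (h : β * x * β⁻¹ ∈ zpowers x) : β ∈ normalizer (zpowers x : Set (MulAut P)) := by
  refine mem_normalizer_fintype ?_
  rintro _ ⟨k, rfl⟩
  show β * x ^ k * β⁻¹ ∈ zpowers x
  rw [← conj_zpow]
  exact zpow_mem h k

omit [Finite P] [IsMulCommutative P] in
theorem ab_fix (hy : y ∈ zpowers x) (h : x v = v) : y v = v :=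
  (zpowers_le.2 (show x ∈ MulAction.stabilizer (MulAut P) v from h) hy :)

omit [Finite P] [IsMulCommutative P] in
theorem ab_self (h : x * y = y * x) : x * y * x⁻¹ ∈ zpowers y := by
  rw [h, mul_inv_cancel_right]; exact mem_zpowers y

theorem card_mul_le {A B Y : Subgroup P} (hA : A ≤ Y) (hB : B ≤ Y) (h : Disjoint A B) :
    Nat.card A * Nat.card B ≤ Nat.card Y :=
  (Coprime.card_sup_of_disjoint le_normalizer_of_normal h.eq_bot).ge.trans (card_le_of_le (sup_le hA hB))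

omit [Finite P] [IsMulCommutative P] in
theorem card_dvd_of_free {G : Type*} [Group G] [MulAction G P] (Q : Subgroup G) (T : Set P)
    (hT : ∀ g ∈ Q, ∀ x ∈ T, g • x ∈ T) (hfree : ∀ g ∈ Q, ∀ x ∈ T, g • x = x → g = 1) :
    Nat.card Q ∣ T.ncard := by
  let T' : SubMulAction Q P := ⟨T, fun g x hx => hT g g.2 x hx⟩
  have h : ∀ b : T', MulAction.stabilizer Q b = ⊥ := fun b => eq_bot_iff.2 fun g hg =>
    Subtype.ext (hfree g g.2 b b.2 (congrArg Subtype.val hg))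
  have := Nat.card_congr (MulAction.selfEquivOrbitsQuotientProd h)
  rw [Nat.card_prod] at this
  exact ⟨_, by rw [← Nat.card_coe_set_eq, mul_comm]; exact this⟩

omit [IsMulCommutative P] in
theorem ncard_diff_one (H : Subgroup P) : ((H : Set P) \ {1}).ncard = Nat.card H - 1 := by
  rw [Set.ncard_sdiff_singleton_of_mem (show (1 : P) ∈ (H : Set P) from one_mem H), ← Nat.card_coe_set_eq]
  rfl

/-- `ker (tau α) = Fx α`. -/
theorem card_mul (α : MulAut P) : Nat.card (Vv α) * Nat.card (Fx α) = Nat.card P := by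
  rw [← ker_tau, ← index_ker, index_mul_card]

omit [Finite P] in
/-- `β` normalizing `⟨x⟩`: `β (tau x p) = tau (β x β⁻¹) (β p)`, and `p⁻¹ (x ^ k) p ∈ Vv x` by induction. -/
theorem map_mem_vv (h : β * x * β⁻¹ ∈ zpowers x) (hv : v ∈ Vv x) : β v ∈ Vv x := by
  let T : Subgroup (MulAut P) :=
    { carrier := {γ | ∀ p, p⁻¹ * γ p ∈ Vv x}
      one_mem' := fun p => by simp
      mul_mem' := fun {γ δ} a b p => by simpa [mul_assoc] using mul_mem (b p) (a (δ p))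
      inv_mem' := fun {γ} a p => by simpa using inv_mem (a (γ⁻¹ p)) }
  obtain ⟨p, rfl⟩ := hv
  simpa [tau_apply] using (zpowers_le.2 (show x ∈ T from fun p => ⟨p, rfl⟩) h :) (β p)

/-- `β⁻¹` normalizes `⟨x⟩` too (finiteness). -/
theorem map_mem_fx (h : β * x * β⁻¹ ∈ zpowers x) (hv : v ∈ Fx x) : β v ∈ Fx x := by
  have h1 := (mem_normalizer_iff''.1 (ab_norm h) x).1 (mem_zpowers x)
  simpa [mem_fx] using congrArg β (ab_fix h1 hv)

variable (hP : IsPGroup 2 P)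
include hP

/-- If `α p = p z` and `α z = z` then `(α ^ n) p = p z ^ n`, so `z` has odd order, `z = 1`. -/
theorem eq_of_fix (ho : Odd (orderOf α)) {p : P} (h : p⁻¹ * α p ∈ Fx α) : α p = p := by
  have key : ∀ n : ℕ, (α ^ n) p = p * (p⁻¹ * α p) ^ n := fun n => by
    induction n with
    | zero => simp
    | succ n ih => rw [pow_succ', MulAut.mul_apply, ih, map_mul, map_pow, mem_fx.1 h, pow_succ',
        ← mul_assoc, mul_inv_cancel_left]
  have h1 := key (orderOf α)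
  rw [pow_orderOf_eq_one, MulAut.one_apply, left_eq_mul, ← orderOf_dvd_iff_pow_eq_one] at h1
  obtain ⟨k, hk⟩ := hP.exists_orderOf_eq_pow (p⁻¹ * α p)
  have h2 := Nat.Coprime.eq_one_of_dvd (hk ▸ (Nat.coprime_two_left.2 ho).pow_left k) h1
  exact (inv_mul_eq_one.1 (orderOf_eq_one_iff.1 h2)).symm

theorem disj (ho : Odd (orderOf α)) : Disjoint (Vv α) (Fx α) := by
  refine disjoint_def.2 ?_
  rintro _ ⟨p, rfl⟩ h
  rw [tau_apply, eq_of_fix hP ho h, inv_mul_cancel]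

/-- `K` has index `≤ 2` in `H`, so `p⁻¹ α p ∈ K` for `p ∈ H`. -/
theorem le_fx (ho : Odd (orderOf α)) (l : K ≤ H) (hH : ∀ p ∈ H, α p ∈ H) (hK : K ≤ Fx α)
    (c : Nat.card H ≤ 2 * Nat.card K) : H ≤ Fx α := by
  intro p hp
  by_cases m : p ∈ K
  · exact hK m
  by_cases m' : α p ∈ K
  · exact α.injective (hK m')
  have e := Coprime.card_mul_relIndex l
  have p0 : 0 < Nat.card K := Nat.card_pos
  have i0 : K.relIndex H ≠ 0 := index_ne_zero_of_finite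
  have i1 : K.relIndex H ≠ 1 := fun h => m (relIndex_eq_one.1 h hp)
  have i2 : K.relIndex H ≤ 2 := by
    refine Nat.le_of_mul_le_mul_left ?_ p0
    rw [e, mul_comm]; exact c
  have i : (K.subgroupOf H).index = 2 := by
    change K.relIndex H = 2
    omega
  exact eq_of_fix hP ho (hK ((mul_mem_iff_of_index_two i (a := ⟨p, hp⟩⁻¹) (b := ⟨α p, hH p hp⟩)).2
    ⟨fun h => absurd (inv_mem_iff.1 h) m, fun h => absurd h m'⟩))

/-- `v⁻¹ β v = w (β w)⁻¹` lies in both subgroups. -/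
theorem fix_parts (ho : Odd (orderOf x)) (h : β * x * β⁻¹ ∈ zpowers x) (hv : v ∈ Vv x)
    (hw : w ∈ Fx x) (e : β (v * w) = v * w) : β v = v ∧ β w = w := by
  have e1 : v⁻¹ * β v = w * (β w)⁻¹ := by
    rw [map_mul] at e
    rw [eq_mul_inv_iff_mul_eq, mul_assoc, e, inv_mul_cancel_left]
  have h1 : v⁻¹ * β v = 1 := disjoint_def.1 (disj hP ho) (mul_mem (inv_mem hv) (map_mem_vv h hv))
    (e1 ▸ mul_mem hw (inv_mem (map_mem_fx h hw)))
  exact ⟨(inv_mul_eq_one.1 h1).symm, (mul_inv_eq_one.1 (e1 ▸ h1)).symm⟩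

/-- `Vv x ⊔ Fx x = ⊤` by orders. -/
theorem eq_one_of_le (ho : Odd (orderOf x)) (h1 : Vv x ≤ Fx β) (h2 : Fx x ≤ Fx β) : β = 1 := by
  have := (isComplement'_of_card_mul_and_disjoint (card_mul x) (disj hP ho)).sup_eq_top
  exact MulEquiv.ext fun p => (this.ge.trans (sup_le h1 h2)) (mem_top p)

/-- `⟨x⟩` acts on `H` with the only fixed point `1` (`IsPGroup.card_modEq_card_fixedPoints`). -/
theorem card_mod (hq : q.Prime) (h2 : q ≠ 2) (hx : orderOf x = q) (hH : ∀ p ∈ H, x p ∈ H)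
    (l : H ≤ Vv x) : Nat.card H ≡ 1 [MOD q] := by
  classical
  have := Fact.mk hq
  have := Fintype.ofFinite H
  let f : Function.End H := fun h => ⟨x h, hH _ h.2⟩
  have key : ∀ (n : ℕ) (h : H), ((f ^ n) h).1 = (x ^ n) h := fun n h => by
    induction n with
    | zero => rfl
    | succ n ih => rw [pow_succ', pow_succ', MulAut.mul_apply, ← ih]; rfl
  have h1 := Equiv.Perm.card_fixedPoints_modEq (f := f) (p := q) (n := 1) (funext fun h => Subtype.ext (by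
    rw [key, pow_one, ← hx, pow_orderOf_eq_one]; rfl))
  have h3 : Fintype.card (Function.fixedPoints f) = 1 :=
    Fintype.card_eq_one_iff.2 ⟨⟨1, Subtype.ext (map_one x)⟩, fun h =>
      Subtype.ext (Subtype.ext (disjoint_def.1 (disj hP (hx ▸ hq.odd_of_ne_two h2)) (l h.1.2)
        (mem_fx.2 (congrArg Subtype.val (show f h.1 = h.1 from h.2)))))⟩
  rwa [← Nat.card_eq_fintype_card, h3] at h1

/-- `#(Vv x)` is a power of two, `≤ 32`, not `1`, and `≡ 1 mod q`. -/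
theorem card_vv (h32 : Nat.card P ≤ 32) (hq : q.Prime) (h2 : q ≠ 2) (hx : orderOf x = q) :
    q = 3 ∧ (Nat.card (Vv x) = 4 ∨ Nat.card (Vv x) = 16) ∨ q = 5 ∧ Nat.card (Vv x) = 16 ∨
      q = 7 ∧ Nat.card (Vv x) = 8 ∨ q = 31 ∧ Nat.card (Vv x) = 32 := by
  have ho : Odd (orderOf x) := hx ▸ hq.odd_of_ne_two h2
  obtain ⟨n, hn⟩ := IsPGroup.iff_card.1 (hP.to_subgroup (Vv x))
  have h1 := card_mod hP hq h2 hx (fun p => map_mem_vv (ab_self rfl)) le_rfl
  have h3 : Nat.card (Vv x) ≤ 32 := (card_le_card_group _).trans h32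
  have h4 : n ≠ 0 := by
    rintro rfl
    rw [eq_one_of_le hP ho ((card_eq_one.1 hn).le.trans bot_le) le_rfl, orderOf_one] at hx
    exact hq.ne_one hx.symm
  rw [hn] at h1 h3 ⊢
  have h5 : n ≤ 5 := (Nat.pow_le_pow_iff_right (by norm_num)).1 (show 2 ^ n ≤ 2 ^ 5 from h3)
  have h6 : q ∣ 2 ^ n - 1 := (Nat.modEq_iff_dvd' (Nat.one_le_two_pow)).1 h1.symm
  interval_cases n
  · exact absurd rfl h4
  · exact absurd (Nat.dvd_one.1 h6) hq.ne_one
  · exact .inl ⟨(Nat.prime_dvd_prime_iff_eq hq Nat.prime_three).1 h6, .inl rfl⟩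
  · exact .inr (.inr (.inl ⟨(Nat.prime_dvd_prime_iff_eq hq (by norm_num)).1 h6, rfl⟩))
  · rcases (Nat.Prime.dvd_mul hq).1 (show q ∣ 3 * 5 from h6) with h | h
    · exact .inl ⟨(Nat.prime_dvd_prime_iff_eq hq Nat.prime_three).1 h, .inr rfl⟩
    · exact .inr (.inl ⟨(Nat.prime_dvd_prime_iff_eq hq Nat.prime_five).1 h, rfl⟩)
  · exact .inr (.inr (.inr ⟨(Nat.prime_dvd_prime_iff_eq hq (by norm_num)).1 h6, rfl⟩))

/-- `⟨x⟩` is transitive on `Vv x \ 1` if `#(Vv x) = q + 1`. -/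
theorem ab_trans (hq : q.Prime) (h2 : q ≠ 2) (hx : orderOf x = q) (hc : Nat.card (Vv x) = q + 1)
    (hv : v ∈ Vv x) (v1 : v ≠ 1) (hw : w ∈ Vv x) (w1 : w ≠ 1) : ∃ γ ∈ zpowers x, γ v = w := by
  have : Fact (Nat.card (zpowers x)).Prime := ⟨by rwa [Nat.card_zpowers, hx]⟩
  have h1 : MulAction.stabilizer (zpowers x) v = ⊥ :=
    (eq_bot_or_eq_top_of_prime_card _).resolve_right fun e => v1 (disjoint_def.1
      (disj hP (hx ▸ hq.odd_of_ne_two h2)) hv (e.ge (mem_top (⟨x, mem_zpowers x⟩ : zpowers x))))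
  have h3 := MulAction.index_stabilizer (zpowers x) v
  rw [h1, index_bot, Nat.card_zpowers, hx] at h3
  have h4 : MulAction.orbit (zpowers x) v = (Vv x : Set P) \ {1} := Set.eq_of_subset_of_ncard_le (by
    rintro _ ⟨⟨γ, k, rfl⟩, rfl⟩
    exact ⟨map_mem_vv (ab_self (Commute.zpow_self x k)) hv, fun e => v1 ((map_eq_one_iff _ (x ^ k).injective).1 e)⟩)
    (by rw [ncard_diff_one, hc, ← h3]; rfl)
  obtain ⟨γ, e⟩ := h4.ge ⟨hw, w1⟩
  exact ⟨γ.1, γ.2, e⟩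

theorem ab_le (hq : q.Prime) (h2 : q ≠ 2) (hx : orderOf x = q) (c : x * y = y * x) (hv : v ∈ Vv x) (v1 : v ≠ 1)
    (e : y v = v) : q + 1 ≤ Nat.card ↥(Vv x ⊓ Fx y) := by
  have h1 := card_mod hP hq h2 hx (H := Vv x ⊓ Fx y)
    (fun p m => ⟨map_mem_vv (ab_self rfl) m.1, map_mem_fx (ab_self c) m.2⟩) inf_le_left
  have h3 : 1 < Nat.card ↥(Vv x ⊓ Fx y) :=
    (one_lt_card_iff_ne_bot _).2 fun h => v1 (mem_bot.1 (h ▸ (⟨hv, e⟩ : v ∈ Vv x ⊓ Fx y)))
  have := Nat.le_of_dvd (by omega) ((Nat.modEq_iff_dvd' h3.le).1 h1.symm)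
  omega

/-- `V = Vv y = {1, v, y v, y² v}`.  `H = V ⊓ Fx y'` is `y`-invariant, of order `1` or `4` (`card_mod`).
If `H = 1`: `y' v = (y ^ k) v` for some `k` (`y'` preserves `V`), so `y'' = y'⁻¹ y ^ k` fixes `v`, commutes
with `y`, and `V ≤ Fx y''` (`card_mod` for `V ⊓ Fx y''`).  `tau y'` is injective on `V` and maps it to
`V ⊓ Vv y'`, so `V = Vv y'`; `tau y'` maps `Fx y` to `Fx y ⊓ V = 1`, so `Fx y ≤ Fx y''`; `eq_one_of_le`. -/
theorem sep (hy : orderOf y = 3) {y' : MulAut P} (c : y * y' = y' * y)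
    (h4 : Nat.card (Vv y) = 4) (h4' : Nat.card (Vv y') = 4) (n : y' ∉ zpowers y) :
    Vv y ≤ Fx y' := by
  have ho : Odd (orderOf y) := by rw [hy]; decide
  have key : ∀ {z : MulAut P}, y * z = z * y → ∀ v ∈ Vv y, v ≠ 1 → z v = v → Vv y ≤ Fx z :=
    fun c v hv v1 e => inf_eq_left.1 (eq_of_le_of_card_ge inf_le_left
      (h4.le.trans (ab_le hP Nat.prime_three (by decide) hy c hv v1 e)))
  by_contra hn
  have h0 : ∀ v ∈ Vv y, y' v = v → v = 1 := fun v hv e => by_contra fun v1 => hn (key c v hv v1 e)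
  obtain ⟨v, hv, v1⟩ := (bot_or_exists_ne_one (Vv y)).resolve_left fun e => by
    rw [e, card_bot] at h4; exact absurd h4 (by decide)
  have m : ∀ v ∈ Vv y, y' v ∈ Vv y := fun v => map_mem_vv (ab_self c.symm)
  obtain ⟨γ, hγ, e⟩ := ab_trans hP Nat.prime_three (by decide) hy h4 hv v1 (m v hv)
    (fun e => v1 ((map_eq_one_iff _ y'.injective).1 e))
  have cγ : Commute y (y'⁻¹ * γ) := by
    obtain ⟨k, rfl⟩ := hγ
    exact (Commute.inv_right c).mul_right (Commute.self_zpow y k)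
  have e1 : (Vv y).map (tau y') = Vv y := eq_of_le_of_card_ge (by
    rintro _ ⟨w, hw, rfl⟩
    exact mul_mem (inv_mem hw) (m w hw)) (by
      rw [← relIndex_ker, ker_tau, ← inf_relIndex_right,
        show Fx y' ⊓ Vv y = ⊥ from eq_bot_iff.2 fun w hw => h0 w hw.2 hw.1, relIndex_bot_left])
  have e2 : Vv y = Vv y' := eq_of_le_of_card_ge (e1.ge.trans (map_le_range _ _)) (h4'.trans h4.symm).le
  have e3 : Fx y ≤ Fx (y'⁻¹ * γ) := fun w hw => by
    have h1 : tau y' w = 1 := disjoint_def.1 (disj hP ho) (e2 ▸ ⟨w, rfl⟩)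
      (mul_mem (inv_mem hw) (map_mem_fx (ab_self c.symm) hw))
    rw [mem_fx, MulAut.mul_apply, ab_fix hγ hw, ← (inv_mul_eq_one.1 h1).symm, MulAut.inv_apply_self,
      (inv_mul_eq_one.1 h1).symm]
  have := eq_one_of_le hP ho (key cγ v hv v1 (by rw [MulAut.mul_apply, e, MulAut.inv_apply_self])) e3
  exact n (inv_mul_eq_one.1 this ▸ hγ)

/-- `N` commutative of exponent `q`, `x ∈ N`, `N ≠ ⟨x⟩`.  `q² ∣ #N`; `N` acts on `Vv x \ 1`, of order
`3, 15, 7, 31` (`card_vv`), so not freely: `y ≠ 1` in `N` fixes `v ≠ 1`.  `H = Vv x ⊓ Fx y` has order `≡ 1 mod q`,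
`≠ 1`.  For `q ≥ 5`: `H = Vv x`, so `#(Vv y) ≤ 4` (`card_mul`), against `card_vv`.  For `q = 3`, `#(Vv x) = 16`:
`#(Fx x) ≤ 2`, `Fx x ≤ Fx y` (`le_fx` with `K = ⊥`), `#(Fx y) ≥ #H * #(Fx x)` (`disj`), `#(Vv y) ≤ 4`. -/
theorem exists_four (h32 : Nat.card P ≤ 32) (hq : q.Prime) (h2 : q ≠ 2) {N : Subgroup (MulAut P)}
    (c : ∀ a ∈ N, ∀ b ∈ N, a * b = b * a) (e : ∀ a ∈ N, a ^ q = 1) (hx : x ∈ N) (h1 : x ≠ 1)
    (n : ¬ N ≤ zpowers x) : q = 3 ∧ ∃ y ∈ N, y ≠ 1 ∧ Nat.card (Vv y) = 4 := by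
  have := Fact.mk hq
  have ord : ∀ a ∈ N, a ≠ 1 → orderOf a = q := fun a ha a1 => orderOf_eq_prime (e a ha) a1
  have hox := ord x hx h1
  have ho : Odd q := hq.odd_of_ne_two h2
  have hsq : q ^ 2 ∣ Nat.card N := by
    obtain ⟨m, hm⟩ := IsPGroup.iff_card.1
      (show IsPGroup q N from fun a => ⟨1, Subtype.ext (by simpa using e a a.2)⟩)
    have hlt : Nat.card (zpowers x) < Nat.card N := lt_of_le_of_ne (card_le_of_le (zpowers_le.2 hx))
      fun h => n (eq_of_le_of_card_ge (zpowers_le.2 hx) h.ge).ge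
    rw [Nat.card_zpowers, hox, hm] at hlt
    rw [hm]
    exact pow_dvd_pow q ((Nat.pow_lt_pow_iff_right hq.one_lt).1 (show q ^ 1 < q ^ m by rwa [pow_one]))
  have hV := card_vv hP h32 hq h2 hox
  obtain ⟨y, hy, v, hv, ev, y1⟩ : ∃ y ∈ N, ∃ v ∈ (Vv x : Set P) \ {1}, y • v = v ∧ y ≠ 1 := by
    by_contra hn
    push Not at hn
    have := hsq.trans (card_dvd_of_free N ((Vv x : Set P) \ {1}) (fun g hg v hv => ⟨map_mem_vv (ab_self (c g hg x hx)) hv.1,
      fun e => hv.2 ((map_eq_one_iff _ g.injective).1 e)⟩) hn)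
    rw [ncard_diff_one] at this
    rcases hV with ⟨rfl, h | h⟩ | ⟨rfl, h⟩ | ⟨rfl, h⟩ | ⟨rfl, h⟩ <;> rw [h] at this <;> revert this <;> decide
  have hoy := ord y hy y1
  have k1 := ab_le hP hq h2 hox (c x hx y hy) hv.1 hv.2 ev
  have k2 := card_le_of_le (inf_le_right : Vv x ⊓ Fx y ≤ _)
  have k3 := card_mul y
  have k4 := card_mul x
  have hW := card_vv hP h32 hq h2 hoy
  rcases hV with ⟨rfl, h | h⟩ | ⟨rfl, h⟩ | ⟨rfl, h⟩ | ⟨rfl, h⟩
  · exact ⟨rfl, x, hx, h1, h⟩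
  · refine ⟨rfl, y, hy, y1, ?_⟩
    rw [h] at k4
    have k5 := le_fx hP (hoy ▸ ho) (K := ⊥) (H := Fx x) bot_le
      (fun p => map_mem_fx (ab_self (c y hy x hx))) bot_le (by rw [card_bot]; omega)
    have k6 := card_mul_le inf_le_right k5 ((disj hP (hox ▸ ho)).mono_left (inf_le_left : Vv x ⊓ Fx y ≤ _))
    have k7 := Nat.mul_le_mul_right (Nat.card (Fx x)) k1
    have k8 : 0 < Nat.card (Fx x) := Nat.card_pos
    rcases hW with ⟨-, h' | h'⟩ | ⟨h', -⟩ | ⟨h', -⟩ | ⟨h', -⟩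
    · exact h'
    · rw [h'] at k3; omega
    all_goals omega
  all_goals
    rcases hW with ⟨h', -⟩ | ⟨h', h''⟩ | ⟨h', h''⟩ | ⟨h', h''⟩
    · omega
    all_goals rw [h''] at k3; omega

omit hP [Finite P] in
theorem card_vv_conj (β y : MulAut P) : Nat.card (Vv (β * y * β⁻¹)) = Nat.card (Vv y) := by
  rw [← card_map_of_injective (K := Vv y) (f := β.toMonoidHom) β.injective]
  congr 2
  ext v
  constructor
  · rintro ⟨p, rfl⟩
    exact ⟨_, ⟨β⁻¹ p, rfl⟩, by simp [tau_apply]⟩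
  · rintro ⟨_, ⟨p, rfl⟩, rfl⟩
    exact ⟨β p, by simp [tau_apply]⟩

/-- `I` is solvable (`PF.isSolvable_of_odd`); `N` minimal normal in `I` (`Perm.exists_minimal_normal_le`,
`comm_of_minimal_normal_of_solvable`, `elementary_of_minimal_normal`), `1 ≠ x ∈ N`.  If `N ≤ ⟨x⟩` done.
Otherwise `y` from `exists_four`; for `β ∈ I` put `y₂ = β y β⁻¹`, `y₃ = β y₂ β⁻¹ ∈ N`, with `#(Vv yᵢ) = 4`
(`Vv (β y β⁻¹) = (Vv y).map β`).  If `y₂ ∉ ⟨y⟩` then `y₃ ∉ ⟨y₂⟩`, and `y₃ ∉ ⟨y⟩` (else `β²`, hence `β` of odd order,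
normalizes `⟨y⟩`); by `sep`, `Vv y ⊔ Vv y₂ ≤ Fx y₃` has order `16` (`Vv y ≤ Fx y₂`, `disj`), but `#(Fx y₃) ≤ 8`. -/
theorem exists_normal (h32 : Nat.card P ≤ 32) {I : Subgroup (MulAut P)} (ho : Odd (Nat.card I))
    (h1 : I ≠ ⊥) : ∃ x ∈ I, (orderOf x).Prime ∧ ∀ β ∈ I, β * x * β⁻¹ ∈ zpowers x := by
  have := PF.isSolvable_of_odd I ho
  have : Nontrivial I := (nontrivial_iff_ne_bot I).2 h1
  obtain ⟨M, hM, -, h0, hmin⟩ := Perm.exists_minimal_normal_le (⊤ : Subgroup I) top_ne_bot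
  have hab := Perm.comm_of_minimal_normal_of_solvable hmin
  obtain ⟨q, hq, e⟩ := Perm.elementary_of_minimal_normal h0 hmin
  have := Fact.mk hq
  have hodd : ∀ β ∈ I, Odd (orderOf β) := fun β hβ => ho.of_dvd_nat (orderOf_dvd_natCard I hβ)
  obtain ⟨N, hNI, nN, c, eN, x, hx, x1⟩ : ∃ N ≤ I, (∀ β ∈ I, ∀ a ∈ N, β * a * β⁻¹ ∈ N) ∧
      (∀ a ∈ N, ∀ b ∈ N, a * b = b * a) ∧ (∀ a ∈ N, a ^ q = 1) ∧ ∃ x ∈ N, x ≠ 1 := by
    obtain ⟨x, hx, x1⟩ := (bot_or_exists_ne_one M).resolve_left h0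
    refine ⟨M.map I.subtype, map_subtype_le _, ?_, ?_, ?_, x, mem_map_of_mem _ hx, fun h => x1 (Subtype.ext h)⟩
    · rintro β hβ _ ⟨a, ha, rfl⟩
      exact ⟨_, hM.conj_mem a ha ⟨β, hβ⟩, rfl⟩
    · rintro _ ⟨a, ha, rfl⟩ _ ⟨b, hb, rfl⟩
      exact congrArg (fun t : M => (t.1 : MulAut P)) (mul_comm' (⟨a, ha⟩ : M) ⟨b, hb⟩)
    · rintro _ ⟨a, ha, rfl⟩
      exact congrArg Subtype.val (e a ha)
  have ord : ∀ a ∈ N, a ≠ 1 → orderOf a = q := fun a ha a1 => orderOf_eq_prime (eN a ha) a1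
  have h2 : q ≠ 2 := fun h => by
    have := hodd x (hNI hx)
    rw [ord x hx x1, h] at this
    exact absurd this (by decide)
  by_cases n : N ≤ zpowers x
  · exact ⟨x, hNI hx, ord x hx x1 ▸ hq, fun β hβ => n (nN β hβ x hx)⟩
  obtain ⟨rfl, y, hy, y1, h4⟩ := exists_four hP h32 hq h2 c eN hx x1 n
  refine ⟨y, hNI hy, ord y hy y1 ▸ hq, fun β hβ => by_contra fun n2 => ?_⟩
  have hy2 := nN β hβ y hy
  have hy3 := nN β hβ _ hy2
  have h42 := (card_vv_conj β y).trans h4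
  have h43 := (card_vv_conj β _).trans h42
  have o1 := ord y hy y1
  have o2 := ord _ hy2 fun h => y1 (conj_eq_one_iff.1 h)
  have n3 : β * (β * y * β⁻¹) * β⁻¹ ∉ zpowers (β * y * β⁻¹) := by
    rintro ⟨k, hk⟩
    refine n2 ⟨k, ?_⟩
    simp only [conj_zpow] at hk
    exact mul_left_cancel (mul_right_cancel hk)
  have n4 : β * (β * y * β⁻¹) * β⁻¹ ∉ zpowers y := fun h => by
    have h5 := ab_norm (β := β ^ 2) (x := y) (by simpa [sq, mul_assoc] using h)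
    have h6 : β ∈ zpowers (β ^ 2) := mem_zpowers_pow_iff.2 (Nat.coprime_two_left.2 (hodd β hβ))
    exact n2 ((mem_normalizer_iff.1 (zpowers_le.2 h5 h6) y).1 (mem_zpowers y))
  have s1 := sep hP o1 (c _ hy _ hy2) h4 h42 n2
  have s2 := sep hP o1 (c _ hy _ hy3) h4 h43 n4
  have s3 := sep hP o2 (c _ hy2 _ hy3) h42 h43 n3
  have s4 := card_mul_le s3 s2 ((disj hP (hodd _ (hNI hy2))).mono_right s1)
  have s5 := card_mul (β * (β * y * β⁻¹) * β⁻¹)
  rw [h4, h42] at s4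
  rw [h43] at s5
  omega

end Cfsg.Lib.OL5
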