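import Cfsg.Agent.Lib.CY4.Grp

/-!
# Olsson's bound for defect at most five: the cases for the defect group
-/

set_option autoImplicit false

namespace Cfsg.Lib.OL5

open Subgroup

variable {P : Type*} [Group P]

/-- Elements with a small centralizer. -/
def Sm (v : P) : Prop :=
  Nat.card (centralizer ({v} : Set P)) ≤ (commutator P).index ∧
    Nat.card (centralizer ({v} : Set P)) ≤ 4 * orderOf v

variable (P) in
/-- All elements of some order have a small centralizer. -/
def CT : Prop := ∃ u : P, ∀ v : P, orderOf v = orderOf u → Sm v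

/-- An abelian subgroup `C₈ × C₂` of index two. -/
structure CO (A : Subgroup P) (x t : P) : Prop where
  idx : A.index = 2
  comm : ∀ a ∈ A, ∀ b ∈ A, a * b = b * a
  card : Nat.card A = 16
  mem : x ∈ A
  ord : orderOf x = 8
  exp : ∀ a ∈ A, a ^ 8 = 1
  inv : t * x ^ 2 * t⁻¹ = (x ^ 2)⁻¹
  der : x ^ 4 ∈ commutator P
  der' : ∀ d ∈ commutator P, d ∈ A ∧ d ^ 4 = 1

variable (P) in
/-- Derived group of order two, centre of index four and not elementary. -/
structure C1 : Prop where
  der : Nat.card (commutator P) = 2
  idx : (center P).index = 4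
  four : ∃ z ∈ center P, z * z ≠ 1

/-- Order 32, derived group equal to the centre, a four-group, `A` abelian of index two. -/
structure C2 (A : Subgroup P) : Prop where
  card : Nat.card P = 32
  der : commutator P = center P
  cardZ : Nat.card (center P) = 4
  two : ∀ z ∈ center P, z * z = 1
  idx : A.index = 2
  comm : ∀ a ∈ A, ∀ b ∈ A, a * b = b * a

end Cfsg.Lib.OL5
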